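import Mathlib

set_option autoImplicit false
set_option linter.unusedSectionVars false

namespace Cfsg.Agent.Lib.Helper16

/-- The largest product of the parts of a partition of `n`. -/
def maxProd : ℕ → ℕ
  | 0 => 1
  | 1 => 1
  | 2 => 2
  | 3 => 3
  | 4 => 4
  | (n + 5) => 3 * maxProd (n + 2)

theorem maxProd_add_five (n : ℕ) : maxProd (n + 5) = 3 * maxProd (n + 2) := by
  rw [maxProd]

theorem maxProd_mono_step : ∀ n, maxProd n ≤ maxProd (n + 1) := by
  intro n
  induction n using Nat.strong_induction_on with
  | _ n ih =>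
    rcases n with _ | _ | _ | _ | _ | n
    · decide
    · decide
    · decide
    · decide
    · decide
    · have h1 := ih (n + 2) (by omega)
      have e1 : n + 5 + 1 = (n + 1) + 5 := by omega
      have e2 : n + 1 + 2 = n + 2 + 1 := by omega
      rw [e1, maxProd_add_five, maxProd_add_five, e2]
      omega

theorem maxProd_two : ∀ n, 2 * maxProd n ≤ maxProd (n + 2) := by
  intro n
  induction n using Nat.strong_induction_on with
  | _ n ih =>
    rcases n with _ | _ | _ | _ | _ | n
    · decide
    · decide
    · decide
    · decide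
    · decide
    · have h1 := ih (n + 2) (by omega)
      have e1 : n + 5 + 2 = (n + 2) + 5 := by omega
      rw [e1, maxProd_add_five, maxProd_add_five]
      omega

theorem maxProd_three : ∀ n, 3 * maxProd n ≤ maxProd (n + 3) := by
  intro n
  rcases n with _ | _ | n
  · decide
  · decide
  · have e1 : n + 2 + 3 = n + 5 := by omega
    rw [e1, maxProd_add_five]

theorem maxProd_mul : ∀ m, 1 ≤ m → ∀ n, m * maxProd n ≤ maxProd (n + m) := by
  intro m
  induction m using Nat.strong_induction_on with
  | _ m ih =>
    intro hm n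
    rcases m with _ | _ | _ | _ | _ | m
    · omega
    · simpa using maxProd_mono_step n
    · exact maxProd_two n
    · exact maxProd_three n
    · show 4 * maxProd n ≤ maxProd (n + 4)
      have h1 := maxProd_two n
      have h2 := maxProd_two (n + 2)
      have e : n + 2 + 2 = n + 4 := by omega
      rw [e] at h2
      omega
    · show (m + 5) * maxProd n ≤ maxProd (n + (m + 5))
      have h1 := ih (m + 2) (by omega) (by omega) n
      have h2 := maxProd_three (n + (m + 2))
      have e : n + (m + 2) + 3 = n + (m + 5) := by omega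
      rw [e] at h2
      have h3 : (m + 5) * maxProd n ≤ 3 * ((m + 2) * maxProd n) := by
        nlinarith [Nat.zero_le (maxProd n), Nat.zero_le m, Nat.zero_le (m * maxProd n)]
      omega

theorem maxProd_pos (n : ℕ) : 1 ≤ maxProd n := by
  induction n with
  | zero => decide
  | succ n ih => exact le_trans ih (maxProd_mono_step n)

theorem maxProd_three_mul (k : ℕ) (hk : 1 ≤ k) : maxProd (3 * k) = 3 ^ k := by
  induction k with
  | zero => omega
  | succ k ih =>
    rcases k with _ | k
    · decide
    · have e : 3 * (k + 1 + 1) = (3 * k + 1) + 5 := by omega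
      have e2 : 3 * k + 1 + 2 = 3 * (k + 1) := by omega
      rw [e, maxProd_add_five, e2, ih (by omega), pow_succ]
      ring

theorem maxProd_three_mul_add_one (k : ℕ) (hk : 1 ≤ k) : maxProd (3 * k + 1) = 4 * 3 ^ (k - 1) := by
  induction k with
  | zero => omega
  | succ k ih =>
    rcases k with _ | k
    · decide
    · have e : 3 * (k + 1 + 1) + 1 = (3 * k + 2) + 5 := by omega
      have e2 : 3 * k + 2 + 2 = 3 * (k + 1) + 1 := by omega
      rw [e, maxProd_add_five, e2, ih (by omega)]
      have e3 : k + 1 + 1 - 1 = (k + 1 - 1) + 1 := by omega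
      rw [e3, pow_succ]
      ring

theorem maxProd_three_mul_add_two (k : ℕ) : maxProd (3 * k + 2) = 2 * 3 ^ k := by
  induction k with
  | zero => decide
  | succ k ih =>
    have e : 3 * (k + 1) + 2 = (3 * k) + 5 := by omega
    rw [e, maxProd_add_five, ih, pow_succ]
    ring

theorem abel_perm_bound {Ω : Type*} [Fintype Ω] [DecidableEq Ω] :
    ∀ n (T : Finset Ω), T.card = n → ∀ A : Subgroup (Equiv.Perm Ω),
      (∀ a ∈ A, ∀ b ∈ A, a * b = b * a) → (∀ a ∈ A, ∀ y, y ∉ T → a y = y) →
      Nat.card A ≤ maxProd n := by
  intro n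
  induction n using Nat.strong_induction_on with
  | _ n ih =>
    intro T hT A hcomm hfix
    rcases T.eq_empty_or_nonempty with hTe | ⟨x, hx⟩
    · have hA : A = ⊥ := by
        rw [eq_bot_iff]
        intro a ha
        rw [Subgroup.mem_bot]
        ext y
        exact hfix a ha y (by rw [hTe]; exact Finset.notMem_empty y)
      rw [hA, Subgroup.card_bot]
      exact maxProd_pos n
    · classical
      obtain ⟨O, hO⟩ : ∃ O : Finset Ω, O = T.filter (fun y => ∃ a ∈ A, a x = y) := ⟨_, rfl⟩
      have hOmem : ∀ y, y ∈ O ↔ ∃ a ∈ A, a x = y := by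
        intro y
        rw [hO, Finset.mem_filter]
        constructor
        · exact fun h => h.2
        · rintro ⟨a, ha, rfl⟩
          refine ⟨?_, a, ha, rfl⟩
          by_contra hnot
          have h1 := hfix a ha (a x) hnot
          have h2 : a x = x := a.injective h1
          rw [h2] at hnot
          exact hnot hx
      have hxO : x ∈ O := (hOmem x).2 ⟨1, A.one_mem, rfl⟩
      have hOT : O ⊆ T := by rw [hO]; exact Finset.filter_subset _ _
      have hOcard : 1 ≤ O.card := Finset.card_pos.2 ⟨x, hxO⟩
      obtain ⟨S, hS⟩ : ∃ S : Subgroup (Equiv.Perm Ω),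
          S = A ⊓ MulAction.stabilizer (Equiv.Perm Ω) x := ⟨_, rfl⟩
      have hSA : S ≤ A := by rw [hS]; exact inf_le_left
      have hSx : ∀ s ∈ S, s x = x := by
        intro s hs
        rw [hS] at hs
        exact MulAction.mem_stabilizer_iff.1 hs.2
      have hSfix : ∀ s ∈ S, ∀ y, y ∉ T \ O → s y = y := by
        intro s hs y hy
        by_cases hyT : y ∈ T
        · have hyO : y ∈ O := by
            by_contra h
            exact hy (Finset.mem_sdiff.2 ⟨hyT, h⟩)
          obtain ⟨a, ha, rfl⟩ := (hOmem y).1 hyO
          have h1 : s * a = a * s := hcomm s (hSA hs) a ha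
          have h2 : s (a x) = (s * a) x := rfl
          rw [h2, h1, Equiv.Perm.mul_apply, hSx s hs]
        · exact hfix s (hSA hs) y hyT
      have hcard' : (T \ O).card = n - O.card := by
        rw [Finset.card_sdiff_of_subset hOT, hT]
      have hOle : O.card ≤ n := by rw [← hT]; exact Finset.card_le_card hOT
      have hS1 := ih (n - O.card) (by omega) (T \ O) hcard' S
        (fun a ha b hb => hcomm a (hSA ha) b (hSA hb)) hSfix
      have hidx : Nat.card A = O.card * Nat.card S := by
        have h1 := Subgroup.card_mul_index (MulAction.stabilizer A x)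
        rw [MulAction.index_stabilizer] at h1
        have h2 : (MulAction.orbit A x) = (O : Set Ω) := by
          ext y
          rw [Finset.mem_coe, hOmem, MulAction.mem_orbit_iff]
          constructor
          · rintro ⟨a, rfl⟩
            exact ⟨a.1, a.2, rfl⟩
          · rintro ⟨a, ha, rfl⟩
            exact ⟨⟨a, ha⟩, rfl⟩
        rw [h2, Set.ncard_coe_finset] at h1
        have h3 : Nat.card (MulAction.stabilizer A x) = Nat.card S := by
          have h4 : (MulAction.stabilizer A x).map A.subtype = S := by
            ext s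
            rw [Subgroup.mem_map, hS, Subgroup.mem_inf]
            constructor
            · rintro ⟨a, ha, rfl⟩
              exact ⟨a.2, ha⟩
            · rintro ⟨hsA, hsx⟩
              exact ⟨⟨s, hsA⟩, hsx, rfl⟩
          rw [← h4]
          exact Nat.card_congr ((MulAction.stabilizer A x).equivMapOfInjective A.subtype
            A.subtype_injective).toEquiv
        rw [h3] at h1
        rw [← h1, mul_comm]
      rw [hidx]
      calc O.card * Nat.card S ≤ O.card * maxProd (n - O.card) := Nat.mul_le_mul_left _ hS1
        _ ≤ maxProd (n - O.card + O.card) := maxProd_mul _ hOcard _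
        _ = maxProd n := by rw [Nat.sub_add_cancel hOle]

theorem abel_perm_bound_fin (n : ℕ) (A : Subgroup (Equiv.Perm (Fin n))) [hA : IsMulCommutative A] :
    Nat.card A ≤ maxProd n := by
  refine abel_perm_bound n Finset.univ (by rw [Finset.card_univ, Fintype.card_fin]) A
    (fun a ha b hb => setLike_mul_comm ha hb) (fun a _ y hy => absurd (Finset.mem_univ y) hy)

/-- There is an abelian subgroup of order `c` in the symmetric group of degree `n`. -/
def HasAbel (n c : ℕ) : Prop :=
  ∃ A : Subgroup (Equiv.Perm (Fin n)), IsMulCommutative A ∧ Nat.card A = c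

theorem hasAbel_add {n m c d : ℕ} (h1 : HasAbel n c) (h2 : HasAbel m d) :
    HasAbel (n + m) (c * d) := by
  obtain ⟨A, hA, rfl⟩ := h1
  obtain ⟨B, hB, rfl⟩ := h2
  obtain ⟨ψ, hψ⟩ : ∃ ψ : ↥A × ↥B →* Equiv.Perm (Fin (n + m)), ψ =
    (Equiv.permCongrHom finSumFinEquiv).toMonoidHom.comp
      ((Equiv.Perm.sumCongrHom (Fin n) (Fin m)).comp (MonoidHom.prodMap A.subtype B.subtype)) :=
    ⟨_, rfl⟩
  have hinj : Function.Injective ψ := by
    rw [hψ]
    refine (Equiv.permCongrHom finSumFinEquiv).injective.comp
      (Equiv.Perm.sumCongrHom_injective.comp ?_)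
    exact Function.Injective.prodMap A.subtype_injective B.subtype_injective
  refine ⟨ψ.range, inferInstance, ?_⟩
  rw [← Nat.card_prod]
  exact (Nat.card_congr (MonoidHom.ofInjective hinj).toEquiv).symm

theorem hasAbel_self (n : ℕ) (hn : 2 ≤ n) : HasAbel n n := by
  refine ⟨Subgroup.zpowers (finRotate n), inferInstance, ?_⟩
  rw [Nat.card_zpowers, (isCycle_finRotate_of_le hn).orderOf,
    support_finRotate_of_le hn, Finset.card_univ, Fintype.card_fin]

theorem hasAbel_zero : HasAbel 0 1 :=
  ⟨⊥, isMulCommutative_iff.2 (fun _ _ => Subsingleton.elim _ _), Subgroup.card_bot⟩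

theorem HasAbel.congr {n c n' c' : ℕ} (h : HasAbel n c) (hn : n = n') (hc : c = c') :
    HasAbel n' c' := by
  subst hn
  subst hc
  exact h

theorem hasAbel_three_mul (k : ℕ) : HasAbel (3 * k) (3 ^ k) := by
  induction k with
  | zero => exact hasAbel_zero
  | succ k ih =>
    exact (hasAbel_add ih (hasAbel_self 3 (by norm_num))).congr (by ring) (by ring)

theorem hasAbel_three_mul_add_one (k : ℕ) (hk : 1 ≤ k) :
    HasAbel (3 * k + 1) (4 * 3 ^ (k - 1)) := by
  exact (hasAbel_add (hasAbel_three_mul (k - 1)) (hasAbel_self 4 (by norm_num))).congr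
    (by omega) (by ring)

theorem hasAbel_three_mul_add_two (k : ℕ) : HasAbel (3 * k + 2) (2 * 3 ^ k) := by
  exact (hasAbel_add (hasAbel_three_mul k) (hasAbel_self 2 (by norm_num))).congr
    (by omega) (by ring)

end Cfsg.Agent.Lib.Helper16
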