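import Mathlib
import Cfsg.Agent.Lib.Helper16.AbelPerm

set_option autoImplicit false
set_option linter.unusedSectionVars false

namespace Cfsg.Agent.Lib.Helper16

/-- The largest order of an abelian group of even permutations of `n` points. -/
def altMax : ℕ → ℕ
  | 0 => 1
  | 1 => 1
  | 2 => 1
  | 3 => 3
  | 4 => 4
  | 5 => 5
  | 6 => 9
  | 7 => 12
  | 8 => 16
  | (n + 9) => 3 * altMax (n + 6)

theorem altMax_add_nine (n : ℕ) : altMax (n + 9) = 3 * altMax (n + 6) := by
  rw [altMax]

theorem altMax_mono_step : ∀ n, altMax n ≤ altMax (n + 1) := by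
  intro n
  induction n using Nat.strong_induction_on with
  | _ n ih =>
    rcases n with _ | _ | _ | _ | _ | _ | _ | _ | _ | n
    · decide
    · decide
    · decide
    · decide
    · decide
    · decide
    · decide
    · decide
    · decide
    · have h1 := ih (n + 6) (by omega)
      have e1 : n + 9 + 1 = (n + 1) + 9 := by omega
      have e2 : n + 1 + 6 = n + 6 + 1 := by omega
      rw [e1, altMax_add_nine, altMax_add_nine, e2]
      omega

theorem altMax_three : ∀ n, 3 * altMax n ≤ altMax (n + 3) := by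
  intro n
  rcases n with _ | _ | _ | _ | _ | _ | n
  · decide
  · decide
  · decide
  · decide
  · decide
  · decide
  · have e1 : n + 6 + 3 = n + 9 := by omega
    rw [e1, altMax_add_nine]

theorem altMax_four : ∀ n, 4 * altMax n ≤ altMax (n + 4) := by
  intro n
  induction n using Nat.strong_induction_on with
  | _ n ih =>
    rcases n with _ | _ | _ | _ | _ | _ | _ | _ | _ | n
    · decide
    · decide
    · decide
    · decide
    · decide
    · decide
    · decide
    · decide
    · decide
    · have h1 := ih (n + 6) (by omega)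
      have e1 : n + 9 + 4 = (n + 4) + 9 := by omega
      have e2 : n + 4 + 6 = n + 6 + 4 := by omega
      rw [e1, altMax_add_nine, altMax_add_nine, e2]
      omega

theorem altMax_five : ∀ n, 5 * altMax n ≤ altMax (n + 5) := by
  intro n
  induction n using Nat.strong_induction_on with
  | _ n ih =>
    rcases n with _ | _ | _ | _ | _ | _ | _ | _ | _ | n
    · decide
    · decide
    · decide
    · decide
    · decide
    · decide
    · decide
    · decide
    · decide
    · have h1 := ih (n + 6) (by omega)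
      have e1 : n + 9 + 5 = (n + 5) + 9 := by omega
      have e2 : n + 5 + 6 = n + 6 + 5 := by omega
      rw [e1, altMax_add_nine, altMax_add_nine, e2]
      omega

theorem altMax_mul : ∀ m, 1 ≤ m → m ≠ 2 → ∀ n, m * altMax n ≤ altMax (n + m) := by
  intro m
  induction m using Nat.strong_induction_on with
  | _ m ih =>
    intro hm hm2 n
    rcases m with _ | _ | _ | _ | _ | _ | m
    · omega
    · simpa using altMax_mono_step n
    · omega
    · exact altMax_three n
    · exact altMax_four n
    · exact altMax_five n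
    · show (m + 6) * altMax n ≤ altMax (n + (m + 6))
      have h1 := ih (m + 3) (by omega) (by omega) (by omega) n
      have h2 := altMax_three (n + (m + 3))
      have e : n + (m + 3) + 3 = n + (m + 6) := by omega
      rw [e] at h2
      have h3 : (m + 6) * altMax n ≤ 3 * ((m + 3) * altMax n) := by
        nlinarith [Nat.zero_le (altMax n), Nat.zero_le m, Nat.zero_le (m * altMax n)]
      omega

theorem maxProd_le_altMax : ∀ n, maxProd n ≤ altMax (n + 2) := by
  intro n
  induction n using Nat.strong_induction_on with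
  | _ n ih =>
    rcases n with _ | _ | _ | _ | _ | _ | _ | n
    · decide
    · decide
    · decide
    · decide
    · decide
    · decide
    · decide
    · have h1 := ih (n + 4) (by omega)
      have e1 : n + 7 = (n + 2) + 5 := by omega
      have e2 : n + 7 + 2 = n + 9 := by omega
      have e3 : n + 2 + 2 = n + 4 := by omega
      have e4 : n + 4 + 2 = n + 6 := by omega
      rw [e2, altMax_add_nine, e1, maxProd_add_five, e3]
      rw [e4] at h1
      omega

theorem altMax_three_mul (k : ℕ) (hk : 1 ≤ k) : altMax (3 * k) = 3 ^ k := by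
  induction k with
  | zero => omega
  | succ k ih =>
    rcases k with _ | _ | k
    · decide
    · decide
    · have e : 3 * (k + 1 + 1 + 1) = (3 * k) + 9 := by omega
      have e2 : 3 * k + 6 = 3 * (k + 1 + 1) := by omega
      rw [e, altMax_add_nine, e2, ih (by omega), pow_succ 3 (k + 1 + 1)]
      ring

theorem altMax_three_mul_add_one (k : ℕ) (hk : 1 ≤ k) : altMax (3 * k + 1) = 4 * 3 ^ (k - 1) := by
  induction k with
  | zero => omega
  | succ k ih =>
    rcases k with _ | _ | k
    · decide
    · decide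
    · have e : 3 * (k + 1 + 1 + 1) + 1 = (3 * k + 1) + 9 := by omega
      have e2 : 3 * k + 1 + 6 = 3 * (k + 1 + 1) + 1 := by omega
      rw [e, altMax_add_nine, e2, ih (by omega)]
      have e3 : k + 1 + 1 + 1 - 1 = (k + 1 + 1 - 1) + 1 := by omega
      rw [e3, pow_succ]
      ring

theorem altMax_three_mul_add_two (k : ℕ) (hk : 2 ≤ k) : altMax (3 * k + 2) = 16 * 3 ^ (k - 2) := by
  induction k with
  | zero => omega
  | succ k ih =>
    rcases k with _ | _ | k
    · omega
    · decide
    · have e : 3 * (k + 1 + 1 + 1) + 2 = (3 * k + 2) + 9 := by omega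
      have e2 : 3 * k + 2 + 6 = 3 * (k + 1 + 1) + 2 := by omega
      rw [e, altMax_add_nine, e2, ih (by omega)]
      have e3 : k + 1 + 1 + 1 - 2 = (k + 1 + 1 - 2) + 1 := by omega
      rw [e3, pow_succ]
      ring

theorem orbit_step {Ω : Type*} [Fintype Ω] [DecidableEq Ω] (T : Finset Ω)
    (A : Subgroup (Equiv.Perm Ω)) (hcomm : ∀ a ∈ A, ∀ b ∈ A, a * b = b * a)
    (hfix : ∀ a ∈ A, ∀ y, y ∉ T → a y = y) (x : Ω) (hx : x ∈ T) :
    ∃ (O : Finset Ω) (S : Subgroup (Equiv.Perm Ω)), x ∈ O ∧ O ⊆ T ∧ S ≤ A ∧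
      (∀ s ∈ S, ∀ y, y ∉ T \ O → s y = y) ∧ Nat.card A = O.card * Nat.card S ∧
      (∀ y, y ∈ O ↔ ∃ a ∈ A, a x = y) := by
  classical
  obtain ⟨O, hO⟩ : ∃ O : Finset Ω, O = T.filter (fun y => ∃ a ∈ A, a x = y) := ⟨_, rfl⟩
  have hOmem : ∀ y, y ∈ O ↔ ∃ a ∈ A, a x = y := by
    intro y
    rw [hO, Finset.mem_filter]
    constructor
    · exact fun h => h.2
    · rintro ⟨a, ha, rfl⟩
      refine ⟨?_, a, ha, rfl⟩
      by_contra hnot
      have h1 := hfix a ha (a x) hnot
      have h2 : a x = x := a.injective h1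
      rw [h2] at hnot
      exact hnot hx
  have hxO : x ∈ O := (hOmem x).2 ⟨1, A.one_mem, rfl⟩
  have hOT : O ⊆ T := by rw [hO]; exact Finset.filter_subset _ _
  obtain ⟨S, hS⟩ : ∃ S : Subgroup (Equiv.Perm Ω),
      S = A ⊓ MulAction.stabilizer (Equiv.Perm Ω) x := ⟨_, rfl⟩
  have hSA : S ≤ A := by rw [hS]; exact inf_le_left
  have hSx : ∀ s ∈ S, s x = x := by
    intro s hs
    rw [hS] at hs
    exact MulAction.mem_stabilizer_iff.1 hs.2
  have hSfix : ∀ s ∈ S, ∀ y, y ∉ T \ O → s y = y := by
    intro s hs y hy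
    by_cases hyT : y ∈ T
    · have hyO : y ∈ O := by
        by_contra h
        exact hy (Finset.mem_sdiff.2 ⟨hyT, h⟩)
      obtain ⟨a, ha, rfl⟩ := (hOmem y).1 hyO
      have h1 : s * a = a * s := hcomm s (hSA hs) a ha
      have h2 : s (a x) = (s * a) x := rfl
      rw [h2, h1, Equiv.Perm.mul_apply, hSx s hs]
    · exact hfix s (hSA hs) y hyT
  have hidx : Nat.card A = O.card * Nat.card S := by
    have h1 := Subgroup.card_mul_index (MulAction.stabilizer A x)
    rw [MulAction.index_stabilizer] at h1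
    have h2 : (MulAction.orbit A x) = (O : Set Ω) := by
      ext y
      rw [Finset.mem_coe, hOmem, MulAction.mem_orbit_iff]
      constructor
      · rintro ⟨a, rfl⟩
        exact ⟨a.1, a.2, rfl⟩
      · rintro ⟨a, ha, rfl⟩
        exact ⟨⟨a, ha⟩, rfl⟩
    rw [h2, Set.ncard_coe_finset] at h1
    have h3 : Nat.card (MulAction.stabilizer A x) = Nat.card S := by
      have h4 : (MulAction.stabilizer A x).map A.subtype = S := by
        ext s
        rw [Subgroup.mem_map, hS, Subgroup.mem_inf]
        constructor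
        · rintro ⟨a, ha, rfl⟩
          exact ⟨a.2, ha⟩
        · rintro ⟨hsA, hsx⟩
          exact ⟨⟨s, hsA⟩, hsx, rfl⟩
      rw [← h4]
      exact Nat.card_congr ((MulAction.stabilizer A x).equivMapOfInjective A.subtype
        A.subtype_injective).toEquiv
    rw [h3] at h1
    rw [← h1, mul_comm]
  exact ⟨O, S, hxO, hOT, hSA, hSfix, hidx, hOmem⟩

theorem two_orbit_bound {Ω : Type*} [Fintype Ω] [DecidableEq Ω] (T : Finset Ω)
    (A : Subgroup (Equiv.Perm Ω)) (hcomm : ∀ a ∈ A, ∀ b ∈ A, a * b = b * a)
    (hfix : ∀ a ∈ A, ∀ y, y ∉ T → a y = y) (heven : ∀ a ∈ A, Equiv.Perm.sign a = 1)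
    (O : Finset Ω) (hOT : O ⊆ T) (hO2 : O.card = 2) (hinv : ∀ a ∈ A, ∀ y, y ∈ O → a y ∈ O) :
    Nat.card A ≤ maxProd (T.card - 2) := by
  classical
  obtain ⟨x, x', hxx, hOeq⟩ := Finset.card_eq_two.1 hO2
  have hinv' : ∀ a : A, ∀ y, (a.1 y ∉ O) ↔ (y ∉ O) := by
    intro a y
    rw [not_iff_not]
    constructor
    · intro h
      have h1 := hinv a.1⁻¹ (A.inv_mem a.2) _ h
      simpa using h1
    · exact hinv a.1 a.2 y
  obtain ⟨ρ, hρ⟩ : ∃ ρ : ↥A →* Equiv.Perm Ω, ∀ a : A,
      ρ a = Equiv.Perm.ofSubtype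
        (Equiv.Perm.subtypePerm (p := fun y => y ∉ O) a.1 (hinv' a)) := by
    let ρ₀ : ↥A →* Equiv.Perm {y // y ∉ O} :=
      { toFun := fun a => Equiv.Perm.subtypePerm (p := fun y => y ∉ O) a.1 (hinv' a)
        map_one' := by ext y; rfl
        map_mul' := fun a b => by ext y; rfl }
    exact ⟨(Equiv.Perm.ofSubtype).comp ρ₀, fun a => rfl⟩
  have hρin : ∀ a : A, ∀ y, y ∈ O → ρ a y = y := by
    intro a y hy
    rw [hρ]
    exact Equiv.Perm.ofSubtype_apply_of_not_mem (p := fun y => y ∉ O) _ (not_not.2 hy)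
  have hρout : ∀ a : A, ∀ y, y ∉ O → ρ a y = a.1 y := by
    intro a y hy
    rw [hρ, Equiv.Perm.ofSubtype_apply_of_mem (p := fun y => y ∉ O) _ hy]
    rfl
  have hinj : Function.Injective ρ := by
    rw [injective_iff_map_eq_one]
    intro a ha
    have hout : ∀ y, y ∉ O → a.1 y = y := by
      intro y hy
      rw [← hρout a y hy, ha]
      rfl
    have hxO : x ∈ O := by rw [hOeq]; simp
    have hx'O : x' ∈ O := by rw [hOeq]; simp
    have hax : a.1 x ∈ O := hinv a.1 a.2 x hxO
    have hax' : a.1 x' ∈ O := hinv a.1 a.2 x' hx'O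
    rw [hOeq, Finset.mem_insert, Finset.mem_singleton] at hax hax'
    have hne : a.1 x ≠ a.1 x' := fun h => hxx (a.1.injective h)
    apply Subtype.ext
    rcases hax with h1 | h1
    · have h2 : a.1 x' = x' := by
        rcases hax' with h | h
        · exact absurd (h1.trans h.symm) hne
        · exact h
      ext y
      by_cases hy : y ∈ O
      · rw [hOeq, Finset.mem_insert, Finset.mem_singleton] at hy
        rcases hy with rfl | rfl
        · simpa using h1
        · simpa using h2
      · simpa using hout y hy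
    · exfalso
      have h2 : a.1 x' = x := by
        rcases hax' with h | h
        · exact h
        · exact absurd (h1.trans h.symm) hne
      have h3 : a.1 = Equiv.swap x x' := by
        ext y
        by_cases hy : y ∈ O
        · rw [hOeq, Finset.mem_insert, Finset.mem_singleton] at hy
          rcases hy with rfl | rfl
          · rw [h1, Equiv.swap_apply_left]
          · rw [h2, Equiv.swap_apply_right]
        · rw [hout y hy]
          have hy' : y ≠ x ∧ y ≠ x' := by
            rw [hOeq, Finset.mem_insert, Finset.mem_singleton] at hy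
            exact not_or.1 hy
          rw [Equiv.swap_apply_of_ne_of_ne hy'.1 hy'.2]
      have h4 := heven a.1 a.2
      rw [h3, Equiv.Perm.sign_swap hxx] at h4
      exact absurd h4 (by decide)
  have hcard : Nat.card ρ.range = Nat.card A :=
    (Nat.card_congr (MonoidHom.ofInjective hinj).toEquiv).symm
  rw [← hcard]
  refine abel_perm_bound (T.card - 2) (T \ O) ?_ ρ.range ?_ ?_
  · rw [Finset.card_sdiff_of_subset hOT, hO2]
  · rintro _ ⟨a, rfl⟩ _ ⟨b, rfl⟩
    rw [← map_mul, ← map_mul]
    congr 1
    exact Subtype.ext (hcomm a.1 a.2 b.1 b.2)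
  · rintro _ ⟨a, rfl⟩ y hy
    by_cases hyO : y ∈ O
    · exact hρin a y hyO
    · rw [hρout a y hyO]
      refine hfix a.1 a.2 y ?_
      intro hyT
      exact hy (Finset.mem_sdiff.2 ⟨hyT, hyO⟩)

theorem alt_abel_bound {Ω : Type*} [Fintype Ω] [DecidableEq Ω] :
    ∀ n (T : Finset Ω), T.card = n → ∀ A : Subgroup (Equiv.Perm Ω),
      (∀ a ∈ A, ∀ b ∈ A, a * b = b * a) → (∀ a ∈ A, ∀ y, y ∉ T → a y = y) →
      (∀ a ∈ A, Equiv.Perm.sign a = 1) → Nat.card A ≤ altMax n := by
  intro n
  induction n using Nat.strong_induction_on with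
  | _ n ih =>
    intro T hT A hcomm hfix heven
    rcases T.eq_empty_or_nonempty with hTe | ⟨x, hx⟩
    · have hA : A = ⊥ := by
        rw [eq_bot_iff]
        intro a ha
        rw [Subgroup.mem_bot]
        ext y
        exact hfix a ha y (by rw [hTe]; exact Finset.notMem_empty y)
      rw [hA, Subgroup.card_bot]
      have h0 : altMax 0 ≤ altMax n := by
        clear ih hT
        induction n with
        | zero => exact le_refl _
        | succ n ih => exact le_trans ih (altMax_mono_step n)
      exact h0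
    · obtain ⟨O, S, hxO, hOT, hSA, hSfix, hidx, hOmem⟩ := orbit_step T A hcomm hfix x hx
      have hOcard : 1 ≤ O.card := Finset.card_pos.2 ⟨x, hxO⟩
      have hOle : O.card ≤ n := by rw [← hT]; exact Finset.card_le_card hOT
      by_cases hm : O.card = 2
      · have hinv : ∀ a ∈ A, ∀ y, y ∈ O → a y ∈ O := by
          intro a ha y hy
          obtain ⟨b, hb, rfl⟩ := (hOmem y).1 hy
          exact (hOmem _).2 ⟨a * b, A.mul_mem ha hb, rfl⟩
        have h1 := two_orbit_bound T A hcomm hfix heven O hOT hm hinv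
        rw [hT] at h1
        have h2 := maxProd_le_altMax (n - 2)
        have e : n - 2 + 2 = n := by omega
        rw [e] at h2
        exact le_trans h1 h2
      · have hcard' : (T \ O).card = n - O.card := by
          rw [Finset.card_sdiff_of_subset hOT, hT]
        have hS1 := ih (n - O.card) (by omega) (T \ O) hcard' S
          (fun a ha b hb => hcomm a (hSA ha) b (hSA hb)) hSfix (fun a ha => heven a (hSA ha))
        rw [hidx]
        calc O.card * Nat.card S ≤ O.card * altMax (n - O.card) := Nat.mul_le_mul_left _ hS1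
          _ ≤ altMax (n - O.card + O.card) := altMax_mul _ hOcard hm _
          _ = altMax n := by rw [Nat.sub_add_cancel hOle]

theorem alt_abel_bound_fin (n : ℕ) (A : Subgroup (alternatingGroup (Fin n)))
    [hA : IsMulCommutative A] : Nat.card A ≤ altMax n := by
  have h1 : Nat.card (A.map (alternatingGroup (Fin n)).subtype) = Nat.card A :=
    (Nat.card_congr (A.equivMapOfInjective _ (alternatingGroup (Fin n)).subtype_injective).toEquiv).symm
  rw [← h1]
  refine alt_abel_bound n Finset.univ (by rw [Finset.card_univ, Fintype.card_fin]) _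
    (fun a ha b hb => setLike_mul_comm ha hb) (fun a _ y hy => absurd (Finset.mem_univ y) hy) ?_
  rintro _ ⟨a, -, rfl⟩
  exact Equiv.Perm.mem_alternatingGroup.1 a.2

/-- There is an abelian group of even permutations of order `c` and degree `n`. -/
def HasAbelE (n c : ℕ) : Prop :=
  ∃ A : Subgroup (Equiv.Perm (Fin n)), IsMulCommutative A ∧ Nat.card A = c ∧
    ∀ a ∈ A, Equiv.Perm.sign a = 1

theorem hasAbelE_add {n m c d : ℕ} (h1 : HasAbelE n c) (h2 : HasAbelE m d) :
    HasAbelE (n + m) (c * d) := by
  obtain ⟨A, hA, rfl, hAe⟩ := h1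
  obtain ⟨B, hB, rfl, hBe⟩ := h2
  obtain ⟨ψ, hψ⟩ : ∃ ψ : ↥A × ↥B →* Equiv.Perm (Fin (n + m)), ψ =
    (Equiv.permCongrHom finSumFinEquiv).toMonoidHom.comp
      ((Equiv.Perm.sumCongrHom (Fin n) (Fin m)).comp (MonoidHom.prodMap A.subtype B.subtype)) :=
    ⟨_, rfl⟩
  have hinj : Function.Injective ψ := by
    rw [hψ]
    refine (Equiv.permCongrHom finSumFinEquiv).injective.comp
      (Equiv.Perm.sumCongrHom_injective.comp ?_)
    exact Function.Injective.prodMap A.subtype_injective B.subtype_injective
  refine ⟨ψ.range, inferInstance, ?_, ?_⟩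
  · rw [← Nat.card_prod]
    exact (Nat.card_congr (MonoidHom.ofInjective hinj).toEquiv).symm
  · rintro _ ⟨⟨a, b⟩, rfl⟩
    have h3 : ψ (a, b) = (finSumFinEquiv).permCongr (Equiv.Perm.sumCongr a.1 b.1) := by
      rw [hψ]
      rfl
    rw [h3, Equiv.Perm.sign_permCongr, Equiv.Perm.sign_sumCongr, hAe a.1 a.2, hBe b.1 b.2,
      mul_one]

theorem hasAbelE_zero : HasAbelE 0 1 :=
  ⟨⊥, isMulCommutative_iff.2 (fun _ _ => Subsingleton.elim _ _), Subgroup.card_bot,
    fun a ha => by rw [Subgroup.mem_bot.1 ha, map_one]⟩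

theorem hasAbelE_three : HasAbelE 3 3 := by
  refine ⟨Subgroup.zpowers (finRotate 3), inferInstance, ?_, ?_⟩
  · rw [Nat.card_zpowers, (isCycle_finRotate_of_le (by norm_num)).orderOf,
      support_finRotate_of_le (by norm_num), Finset.card_univ, Fintype.card_fin]
  · rintro _ ⟨j, rfl⟩
    have h1 : Equiv.Perm.sign (finRotate 3) = 1 := by
      rw [sign_finRotate]
      norm_num
    show Equiv.Perm.sign (finRotate 3 ^ j) = 1
    rw [map_zpow, h1, one_zpow]

/-- The four-group as a set of permutations of four points. -/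
def v4Set : Finset (Equiv.Perm (Fin 4)) :=
  {1, Equiv.swap 0 1 * Equiv.swap 2 3, Equiv.swap 0 2 * Equiv.swap 1 3,
    Equiv.swap 0 3 * Equiv.swap 1 2}

/-- The four-group as a subgroup of the symmetric group of degree four. -/
def v4Sub : Subgroup (Equiv.Perm (Fin 4)) where
  carrier := {a | a ∈ v4Set}
  one_mem' := by decide
  mul_mem' := by
    intro a b ha hb
    revert a b
    decide
  inv_mem' := by
    intro a ha
    revert a
    decide

theorem hasAbelE_four : HasAbelE 4 4 := by
  refine ⟨v4Sub, ?_, ?_, ?_⟩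
  · rw [isMulCommutative_iff]
    have key : ∀ a ∈ v4Set, ∀ b ∈ v4Set, a * b = b * a := by decide
    rintro ⟨a, ha⟩ ⟨b, hb⟩
    exact Subtype.ext (key a ha b hb)
  · have h1 : Nat.card v4Sub = Nat.card {a // a ∈ v4Set} := rfl
    rw [h1, Nat.card_eq_fintype_card, Fintype.card_coe]
    decide
  · intro a ha
    have ha' : a ∈ v4Set := ha
    simp only [v4Set, Finset.mem_insert, Finset.mem_singleton] at ha'
    rcases ha' with rfl | rfl | rfl | rfl
    · exact map_one _
    · rw [map_mul, Equiv.Perm.sign_swap (by decide), Equiv.Perm.sign_swap (by decide)]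
      decide
    · rw [map_mul, Equiv.Perm.sign_swap (by decide), Equiv.Perm.sign_swap (by decide)]
      decide
    · rw [map_mul, Equiv.Perm.sign_swap (by decide), Equiv.Perm.sign_swap (by decide)]
      decide

theorem HasAbelE.congr {n c n' c' : ℕ} (h : HasAbelE n c) (hn : n = n') (hc : c = c') :
    HasAbelE n' c' := by
  subst hn
  subst hc
  exact h

theorem hasAbelE_three_mul (k : ℕ) : HasAbelE (3 * k) (3 ^ k) := by
  induction k with
  | zero => exact hasAbelE_zero
  | succ k ih =>
    exact (hasAbelE_add ih hasAbelE_three).congr (by ring) (by ring)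

theorem hasAbelE_three_mul_add_one (k : ℕ) (hk : 1 ≤ k) :
    HasAbelE (3 * k + 1) (4 * 3 ^ (k - 1)) := by
  exact (hasAbelE_add (hasAbelE_three_mul (k - 1)) hasAbelE_four).congr
    (by omega) (by ring)

theorem hasAbelE_three_mul_add_two (k : ℕ) (hk : 2 ≤ k) :
    HasAbelE (3 * k + 2) (16 * 3 ^ (k - 2)) := by
  exact (hasAbelE_add (hasAbelE_add (hasAbelE_three_mul (k - 2)) hasAbelE_four)
    hasAbelE_four).congr (by omega) (by ring)

theorem HasAbelE.toAlt {n c : ℕ} (h : HasAbelE n c) :
    ∃ A : Subgroup (alternatingGroup (Fin n)), IsMulCommutative A ∧ Nat.card A = c := by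
  obtain ⟨B, hB, rfl, hBe⟩ := h
  have hle : B ≤ alternatingGroup (Fin n) := fun b hb =>
    Equiv.Perm.mem_alternatingGroup.2 (hBe b hb)
  exact ⟨B.subgroupOf (alternatingGroup (Fin n)), inferInstance,
    Nat.card_congr (Subgroup.subgroupOfEquivOfLe hle).toEquiv⟩

end Cfsg.Agent.Lib.Helper16
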