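import Mathlib

set_option autoImplicit false

namespace Cfsg.Agent.Lib.Helper16

section SylowTorus

open Pointwise

variable {G : Type*} [Group G]

theorem mem_conj_smul' (g x : G) (S : Subgroup G) : x ∈ MulAut.conj g • S ↔ g⁻¹ * x * g ∈ S := by
  rw [Subgroup.mem_pointwise_smul_iff_inv_smul_mem, MulAut.smul_def, MulAut.conj_inv_apply]

theorem centralizer_conj_smul (g : G) (H : Subgroup G) :
    Subgroup.centralizer ((MulAut.conj g • H : Subgroup G) : Set G) =
      MulAut.conj g • Subgroup.centralizer (H : Set G) := by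
  ext x
  rw [mem_conj_smul', Subgroup.mem_centralizer_iff, Subgroup.mem_centralizer_iff]
  constructor
  · intro h z hz
    have hy : g * z * g⁻¹ ∈ ((MulAut.conj g • H : Subgroup G) : Set G) := by
      rw [SetLike.mem_coe, mem_conj_smul']
      have : g⁻¹ * (g * z * g⁻¹) * g = z := by group
      rw [this]
      exact hz
    have h1 := h _ hy
    calc z * (g⁻¹ * x * g) = g⁻¹ * (g * z * g⁻¹ * x) * g := by group
      _ = g⁻¹ * (x * (g * z * g⁻¹)) * g := by rw [h1]
      _ = g⁻¹ * x * g * z := by group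
  · intro h y hy
    rw [SetLike.mem_coe, mem_conj_smul'] at hy
    have h1 := h _ hy
    calc y * x = g * (g⁻¹ * y * g * (g⁻¹ * x * g)) * g⁻¹ := by group
      _ = g * (g⁻¹ * x * g * (g⁻¹ * y * g)) * g⁻¹ := by rw [h1]
      _ = x * y := by group

theorem normalizer_conj_smul (g : G) (H : Subgroup G) :
    Subgroup.normalizer ((MulAut.conj g • H : Subgroup G) : Set G) =
      MulAut.conj g • Subgroup.normalizer (H : Set G) := by
  ext x
  rw [mem_conj_smul', Subgroup.mem_normalizer_iff, Subgroup.mem_normalizer_iff]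
  constructor
  · intro h z
    have h1 := h (g * z * g⁻¹)
    rw [mem_conj_smul', mem_conj_smul'] at h1
    have e1 : g⁻¹ * (g * z * g⁻¹) * g = z := by group
    have e2 : g⁻¹ * (x * (g * z * g⁻¹) * x⁻¹) * g = g⁻¹ * x * g * z * (g⁻¹ * x * g)⁻¹ := by group
    rw [e1, e2] at h1
    exact h1
  · intro h y
    have h1 := h (g⁻¹ * y * g)
    rw [mem_conj_smul', mem_conj_smul']
    have e2 : g⁻¹ * x * g * (g⁻¹ * y * g) * (g⁻¹ * x * g)⁻¹ = g⁻¹ * (x * y * x⁻¹) * g := by group
    rw [e2] at h1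
    exact h1

/-- Centralizer and normalizer of a Sylow subgroup for an odd prime whose full power divides the
order of an abelian subgroup `T` with a "regularity" property. -/
theorem sylow_torus [Finite G] (ℓ : ℕ) [Fact ℓ.Prime] (hℓ2 : ℓ ≠ 2)
    (T : Subgroup G) (hcomm : ∀ a ∈ T, ∀ b ∈ T, a * b = b * a)
    (hval : (Nat.card G).factorization ℓ = (Nat.card T).factorization ℓ)
    (hdvd : ℓ ∣ Nat.card T)
    (hcent : ∀ x ∈ T, x * x ≠ 1 → Subgroup.centralizer ({x} : Set G) = T)
    (P : Sylow ℓ G) :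
    ∃ g : G, Subgroup.centralizer ((P : Subgroup G) : Set G) = MulAut.conj g • T ∧
      Subgroup.normalizer ((P : Subgroup G) : Set G) =
        MulAut.conj g • Subgroup.normalizer (T : Set G) := by
  classical
  have hℓ := (Fact.out : ℓ.Prime)
  obtain ⟨Q₀⟩ : Nonempty (Sylow ℓ T) := inferInstance
  set P₀ : Subgroup G := (Q₀ : Subgroup T).map T.subtype with hP₀
  have hP₀T : P₀ ≤ T := by rw [hP₀]; exact Subgroup.map_subtype_le _
  have hP₀p : IsPGroup ℓ P₀ := Q₀.isPGroup'.map _
  have hP₀card : Nat.card P₀ = ℓ ^ (Nat.card T).factorization ℓ := by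
    rw [hP₀, Subgroup.card_map_of_injective T.subtype_injective, Sylow.card_eq_multiplicity]
  obtain ⟨Q, hQ⟩ := hP₀p.exists_le_sylow
  have hQcard : Nat.card Q = ℓ ^ (Nat.card G).factorization ℓ := Sylow.card_eq_multiplicity Q
  have hPQ : P₀ = (Q : Subgroup G) :=
    Subgroup.eq_of_le_of_card_ge hQ (by rw [hQcard, hP₀card, hval])
  have hk : 0 < (Nat.card T).factorization ℓ :=
    hℓ.factorization_pos_of_dvd (Nat.card_pos.ne') hdvd
  have hnontriv : ∃ x ∈ P₀, x ≠ 1 := by
    by_contra hcon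
    have hall : ∀ x ∈ P₀, x = 1 := by
      intro x hx
      by_contra hx1
      exact hcon ⟨x, hx, hx1⟩
    have hbot : P₀ = ⊥ := (Subgroup.eq_bot_iff_forall _).mpr hall
    rw [hbot, Subgroup.card_bot] at hP₀card
    have : 1 < ℓ ^ (Nat.card T).factorization ℓ := Nat.one_lt_pow hk.ne' hℓ.one_lt
    omega
  obtain ⟨x, hx, hx1⟩ := hnontriv
  have hxx : x * x ≠ 1 := by
    intro h
    obtain ⟨k, hk⟩ := hP₀p ⟨x, hx⟩
    have h1 : x ^ (ℓ ^ k) = 1 := by simpa using congrArg Subtype.val hk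
    have h2 : x ^ 2 = 1 := by rw [pow_two]; exact h
    have hcop : Nat.Coprime (ℓ ^ k) 2 :=
      Nat.Coprime.pow_left k ((Nat.coprime_primes hℓ Nat.prime_two).mpr hℓ2)
    have h3 : x ^ (Nat.gcd (ℓ ^ k) 2) = 1 := pow_gcd_eq_one.mpr ⟨h1, h2⟩
    rw [hcop.gcd_eq_one, pow_one] at h3
    exact hx1 h3
  have hCx := hcent x (hP₀T hx) hxx
  have hC : Subgroup.centralizer (P₀ : Set G) = T := by
    apply le_antisymm
    · rw [← hCx]
      exact Subgroup.centralizer_le (Set.singleton_subset_iff.mpr hx)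
    · intro y hy
      rw [Subgroup.mem_centralizer_iff]
      intro z hz
      exact hcomm z (hP₀T hz) y hy
  have hchar : ∀ y : G, y ∈ P₀ ↔ (y ∈ T ∧ y ^ (Nat.card P₀) = 1) := by
    intro y
    constructor
    · intro hy
      refine ⟨hP₀T hy, ?_⟩
      have h1 : (⟨y, hy⟩ : P₀) ^ Nat.card P₀ = 1 := pow_card_eq_one'
      have h2 := congrArg Subtype.val h1
      rw [Subgroup.coe_pow, Subgroup.coe_one] at h2
      exact h2
    · rintro ⟨hyT, hy⟩
      have hz : IsPGroup ℓ (Subgroup.zpowers y) := by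
        rintro ⟨z, hz⟩
        refine ⟨(Nat.card T).factorization ℓ, ?_⟩
        obtain ⟨i, rfl⟩ := Subgroup.mem_zpowers_iff.mp hz
        apply Subtype.ext
        rw [Subgroup.coe_pow, Subgroup.coe_one]
        change (y ^ i) ^ (ℓ ^ (Nat.card T).factorization ℓ) = 1
        rw [← hP₀card, ← zpow_natCast, ← zpow_mul, mul_comm, zpow_mul, zpow_natCast, hy, one_zpow]
      have hynorm : y ∈ Subgroup.normalizer (P₀ : Set G) := by
        apply Subgroup.centralizer_le_normalizer
        rw [hC]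
        exact hyT
      have hsup := IsPGroup.to_sup_of_normal_right' hz hP₀p (Subgroup.zpowers_le.mpr hynorm)
      have hle : (Q : Subgroup G) ≤ Subgroup.zpowers y ⊔ P₀ := by
        rw [← hPQ]
        exact le_sup_right
      have heq := Q.is_maximal' hsup hle
      rw [hPQ, ← heq]
      exact (le_sup_left : Subgroup.zpowers y ≤ Subgroup.zpowers y ⊔ P₀) (Subgroup.mem_zpowers y)
  have hN : Subgroup.normalizer (P₀ : Set G) = Subgroup.normalizer (T : Set G) := by
    apply le_antisymm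
    · intro n hn
      rw [Subgroup.mem_normalizer_iff]
      intro z
      rw [← hC, Subgroup.mem_centralizer_iff, Subgroup.mem_centralizer_iff]
      constructor
      · intro hz p hp
        have hp' : n⁻¹ * p * n ∈ (P₀ : Set G) := (Subgroup.mem_normalizer_iff''.mp hn p).mp hp
        have h1 := hz _ hp'
        calc p * (n * z * n⁻¹) = n * (n⁻¹ * p * n * z) * n⁻¹ := by group
          _ = n * (z * (n⁻¹ * p * n)) * n⁻¹ := by rw [h1]
          _ = n * z * n⁻¹ * p := by group
      · intro hz p hp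
        have hp' : n * p * n⁻¹ ∈ (P₀ : Set G) := (Subgroup.mem_normalizer_iff.mp hn p).mp hp
        have h1 := hz _ hp'
        calc p * z = n⁻¹ * (n * p * n⁻¹ * (n * z * n⁻¹)) * n := by group
          _ = n⁻¹ * (n * z * n⁻¹ * (n * p * n⁻¹)) * n := by rw [h1]
          _ = z * p := by group
    · intro n hn
      rw [Subgroup.mem_normalizer_iff]
      intro y
      rw [hchar, hchar, conj_pow, conj_eq_one_iff]
      have h1 := Subgroup.mem_normalizer_iff.mp hn y
      constructor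
      · rintro ⟨a, b⟩
        exact ⟨h1.mp a, b⟩
      · rintro ⟨a, b⟩
        exact ⟨h1.mpr a, b⟩
  obtain ⟨g, hg⟩ := MulAction.exists_smul_eq G Q P
  have hPg : (P : Subgroup G) = MulAut.conj g • P₀ := by
    rw [← hg, Sylow.coe_subgroup_smul, hPQ]
  refine ⟨g, ?_, ?_⟩
  · rw [hPg, centralizer_conj_smul, hC]
  · rw [hPg, normalizer_conj_smul, hN]

theorem card_conj_smul (g : G) (H : Subgroup G) :
    Nat.card (MulAut.conj g • H : Subgroup G) = Nat.card H :=
  (Nat.card_congr (Subgroup.equivSMul (MulAut.conj g) H).toEquiv).symm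

theorem isCyclic_conj_smul (g : G) (H : Subgroup G) (h : IsCyclic H) :
    IsCyclic (MulAut.conj g • H : Subgroup G) :=
  isCyclic_of_surjective (Subgroup.equivSMul (MulAut.conj g) H)
    (Subgroup.equivSMul (MulAut.conj g) H).surjective

theorem sylow_torus_facts [Finite G] (ℓ : ℕ) [Fact ℓ.Prime] (hℓ2 : ℓ ≠ 2)
    (T : Subgroup G) (hcomm : ∀ a ∈ T, ∀ b ∈ T, a * b = b * a)
    (hval : (Nat.card G).factorization ℓ = (Nat.card T).factorization ℓ)
    (hdvd : ℓ ∣ Nat.card T)
    (hcent : ∀ x ∈ T, x * x ≠ 1 → Subgroup.centralizer ({x} : Set G) = T)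
    (P : Sylow ℓ G) :
    Nat.card (Subgroup.centralizer ((P : Subgroup G) : Set G)) = Nat.card T ∧
    (IsCyclic T → IsCyclic (Subgroup.centralizer ((P : Subgroup G) : Set G))) ∧
    Nat.card (Subgroup.normalizer ((P : Subgroup G) : Set G)) =
      Nat.card (Subgroup.normalizer (T : Set G)) := by
  obtain ⟨g, h1, h2⟩ := sylow_torus ℓ hℓ2 T hcomm hval hdvd hcent P
  rw [h1, h2]
  exact ⟨card_conj_smul g T, isCyclic_conj_smul g T, card_conj_smul g _⟩

theorem val_split {q ℓ : ℕ} (hℓ : ℓ.Prime) (hℓ2 : ℓ ≠ 2) (hq : 2 ≤ q) (h : ℓ ∣ q - 1) :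
    (q * (q ^ 2 - 1)).factorization ℓ = (q - 1).factorization ℓ := by
  have e : q ^ 2 - 1 = (q - 1) * (q + 1) := by
    obtain ⟨m, rfl⟩ : ∃ m, q = m + 1 := ⟨q - 1, by omega⟩
    apply Nat.sub_eq_of_eq_add
    simp only [Nat.add_sub_cancel]
    ring
  have h1 : ¬ ℓ ∣ q := by
    intro h'
    have := Nat.dvd_sub h' h
    have e1 : q - (q - 1) = 1 := by omega
    rw [e1] at this
    exact hℓ.one_lt.ne' (Nat.dvd_one.mp this)
  have h2 : ¬ ℓ ∣ q + 1 := by
    intro h'
    have := Nat.dvd_sub h' h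
    have e1 : q + 1 - (q - 1) = 2 := by omega
    rw [e1] at this
    exact hℓ2 ((Nat.prime_dvd_prime_iff_eq hℓ Nat.prime_two).mp this)
  rw [e, Nat.factorization_mul (by omega) (Nat.mul_ne_zero (by omega) (by omega)),
    Nat.factorization_mul (by omega) (by omega)]
  simp only [Finsupp.add_apply]
  rw [Nat.factorization_eq_zero_of_not_dvd h1, Nat.factorization_eq_zero_of_not_dvd h2]
  omega

theorem val_nonsplit {q ℓ : ℕ} (hℓ : ℓ.Prime) (hℓ2 : ℓ ≠ 2) (hq : 2 ≤ q) (h : ℓ ∣ q + 1) :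
    (q * (q ^ 2 - 1)).factorization ℓ = (q + 1).factorization ℓ := by
  have e : q ^ 2 - 1 = (q - 1) * (q + 1) := by
    obtain ⟨m, rfl⟩ : ∃ m, q = m + 1 := ⟨q - 1, by omega⟩
    apply Nat.sub_eq_of_eq_add
    simp only [Nat.add_sub_cancel]
    ring
  have h1 : ¬ ℓ ∣ q := by
    intro h'
    have := Nat.dvd_sub h h'
    have e1 : q + 1 - q = 1 := by omega
    rw [e1] at this
    exact hℓ.one_lt.ne' (Nat.dvd_one.mp this)
  have h2 : ¬ ℓ ∣ q - 1 := by
    intro h'
    have := Nat.dvd_sub h h'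
    have e1 : q + 1 - (q - 1) = 2 := by omega
    rw [e1] at this
    exact hℓ2 ((Nat.prime_dvd_prime_iff_eq hℓ Nat.prime_two).mp this)
  rw [e, Nat.factorization_mul (by omega) (Nat.mul_ne_zero (by omega) (by omega)),
    Nat.factorization_mul (by omega) (by omega)]
  simp only [Finsupp.add_apply]
  rw [Nat.factorization_eq_zero_of_not_dvd h1, Nat.factorization_eq_zero_of_not_dvd h2]
  omega

end SylowTorus

end Cfsg.Agent.Lib.Helper16
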