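import Mathlib
import Cfsg.Agent.Lib.Helper16.SylowTorus

set_option autoImplicit false
set_option linter.unusedSectionVars false

namespace Cfsg.Agent.Lib.Helper16

open Matrix

section PGL2Ell

variable {F : Type*} [Field F]

/-- Equality in `PGL₂` in terms of matrices. -/
theorem pgl_eq_iff (A B : GL (Fin 2) F) :
    (QuotientGroup.mk A : GL (Fin 2) F ⧸ Subgroup.center (GL (Fin 2) F)) = QuotientGroup.mk B
      ↔ ∃ c : F, B.val = c • A.val := by
  rw [QuotientGroup.eq, Matrix.GeneralLinearGroup.mem_center_iff_val_mem_range_scalar]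
  constructor
  · rintro ⟨c, hc⟩
    refine ⟨c, ?_⟩
    have h1 : B.val = A.val * (A⁻¹ * B).val := by
      rw [Units.val_mul, ← Matrix.mul_assoc, ← Units.val_mul, mul_inv_cancel, Units.val_one,
        Matrix.one_mul]
    rw [h1, ← hc, Matrix.scalar_apply, ← Matrix.smul_one_eq_diagonal, Matrix.mul_smul,
      Matrix.mul_one]
  · rintro ⟨c, hc⟩
    refine ⟨c, ?_⟩
    rw [Units.val_mul, hc, Matrix.mul_smul, ← Units.val_mul, inv_mul_cancel, Units.val_one,
      Matrix.scalar_apply, ← Matrix.smul_one_eq_diagonal]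

theorem pgl_eq_one_iff (A : GL (Fin 2) F) :
    (QuotientGroup.mk A : GL (Fin 2) F ⧸ Subgroup.center (GL (Fin 2) F)) = 1
      ↔ ∃ c : F, A.val = c • (1 : Matrix (Fin 2) (Fin 2) F) := by
  have h := pgl_eq_iff (1 : GL (Fin 2) F) A
  rw [QuotientGroup.mk_one] at h
  rw [eq_comm, h]
  rfl

theorem pgl_comm_iff (A B : GL (Fin 2) F) :
    (QuotientGroup.mk A : GL (Fin 2) F ⧸ Subgroup.center (GL (Fin 2) F)) * QuotientGroup.mk B
        = QuotientGroup.mk B * QuotientGroup.mk A
      ↔ ∃ c : F, A.val * B.val = c • (B.val * A.val) := by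
  rw [← QuotientGroup.mk_mul, ← QuotientGroup.mk_mul, eq_comm, pgl_eq_iff]
  rfl

/-- Commuting in `PGL₂` with the class of a matrix of square `-1`. -/
theorem pgl_comm_sq_iff (A B : GL (Fin 2) F) (hB : B.val * B.val = -1) :
    (QuotientGroup.mk A : GL (Fin 2) F ⧸ Subgroup.center (GL (Fin 2) F)) * QuotientGroup.mk B
        = QuotientGroup.mk B * QuotientGroup.mk A
      ↔ (A.val * B.val = B.val * A.val ∨ A.val * B.val = -(B.val * A.val)) := by
  rw [pgl_comm_iff]
  constructor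
  · rintro ⟨c, hc⟩
    have h1 : A.val * B.val * B.val = (c * c) • (B.val * B.val * A.val) := by
      rw [hc, Matrix.smul_mul, Matrix.mul_assoc, hc, Matrix.mul_smul, smul_smul,
        Matrix.mul_assoc]
    rw [Matrix.mul_assoc, hB, Matrix.mul_neg, Matrix.mul_one, Matrix.neg_mul, Matrix.one_mul,
      smul_neg, neg_inj] at h1
    have h2 : (c * c - 1) • A.val = 0 := by
      rw [sub_smul, one_smul, ← h1, sub_self]
    have hA0 : A.val ≠ 0 := by
      intro h0
      have := A.mul_inv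
      rw [h0, Matrix.zero_mul] at this
      exact zero_ne_one this
    rcases smul_eq_zero.1 h2 with h3 | h3
    · have h4 : (c - 1) * (c + 1) = 0 := by linear_combination h3
      rcases mul_eq_zero.1 h4 with h5 | h5
      · left
        rw [hc, sub_eq_zero.1 h5, one_smul]
      · right
        rw [hc, eq_neg_of_add_eq_zero_left h5, neg_smul, one_smul]
    · exact absurd h3 hA0
  · rintro (h | h)
    · exact ⟨1, by rw [h, one_smul]⟩
    · exact ⟨-1, by rw [h, neg_smul, one_smul]⟩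

end PGL2Ell


section PGL2Std

variable {F : Type*} [Field F]

/-- The standard elliptic element `[[0, 1], [-1, 0]]`. -/
def ellM (F : Type*) [Field F] : GL (Fin 2) F :=
  ⟨!![0, 1; -1, 0], !![0, -1; 1, 0],
    by ext i j; fin_cases i <;> fin_cases j <;> simp [Matrix.mul_apply, Fin.sum_univ_two],
    by ext i j; fin_cases i <;> fin_cases j <;> simp [Matrix.mul_apply, Fin.sum_univ_two]⟩

theorem ellM_val : (ellM F).val = !![0, 1; -1, 0] := rfl

theorem ellM_sq : (ellM F).val * (ellM F).val = -1 := by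
  rw [ellM_val]
  ext i j
  fin_cases i <;> fin_cases j <;> simp [Matrix.mul_apply, Fin.sum_univ_two]

/-- Conjugates of the standard elliptic element still have square `-1`. -/
theorem conj_sq (Y M : GL (Fin 2) F) (hM : M.val * M.val = -1) :
    (Y * M * Y⁻¹).val * (Y * M * Y⁻¹).val = -1 := by
  have h1 : (Y * M * Y⁻¹) * (Y * M * Y⁻¹) = Y * (M * M) * Y⁻¹ := by group
  rw [← Units.val_mul, h1, Units.val_mul, Units.val_mul, Units.val_mul, hM, Matrix.mul_neg,
    Matrix.mul_one, Matrix.neg_mul, ← Units.val_mul, mul_inv_cancel, Units.val_one]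

/-- A matrix of square `-1` over a field where `-1` is not a square has no eigenvector. -/
theorem no_eigen_of_sq (hns : ¬ IsSquare (-1 : F)) (M : Matrix (Fin 2) (Fin 2) F)
    (hM : M * M = -1) (v : Fin 2 → F) (hv : v ≠ 0) (c : F) : M *ᵥ v ≠ c • v := by
  intro h
  have h1 : M *ᵥ (M *ᵥ v) = (c * c) • v := by
    rw [h, Matrix.mulVec_smul, h, smul_smul]
  rw [Matrix.mulVec_mulVec, hM, Matrix.neg_mulVec, Matrix.one_mulVec] at h1
  have h2 : (c * c + 1) • v = 0 := by
    rw [add_smul, one_smul, ← h1, neg_add_cancel]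
  rcases smul_eq_zero.1 h2 with h3 | h3
  · exact hns ⟨c, by linear_combination -h3⟩
  · exact hv h3

/-- A matrix anticommuting with a matrix of square `-1` is zero or invertible. -/
theorem det_ne_zero_of_anticomm (hns : ¬ IsSquare (-1 : F)) (M N : Matrix (Fin 2) (Fin 2) F)
    (hM : M * M = -1) (hN : N * M = -(M * N)) (hN0 : N ≠ 0) : N.det ≠ 0 := by
  intro hdet
  obtain ⟨v, hv, hNv⟩ := Matrix.exists_mulVec_eq_zero_iff.mpr hdet
  have hNMv : N *ᵥ (M *ᵥ v) = 0 := by
    rw [Matrix.mulVec_mulVec, hN, Matrix.neg_mulVec, ← Matrix.mulVec_mulVec, hNv,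
      Matrix.mulVec_zero, neg_zero]
  obtain ⟨u, hu⟩ : ∃ u, u = M *ᵥ v := ⟨_, rfl⟩
  rw [← hu] at hNMv
  -- `v` and `u` are proportional
  have hprop : v 0 * u 1 - v 1 * u 0 = 0 := by
    by_contra hne
    apply hN0
    have e0 := congrFun hNv 0
    have e1 := congrFun hNv 1
    have f0 := congrFun hNMv 0
    have f1 := congrFun hNMv 1
    simp only [Matrix.mulVec, dotProduct, Fin.sum_univ_two, Pi.zero_apply] at e0 e1 f0 f1
    ext i j
    fin_cases i <;> fin_cases j
    · show N 0 0 = 0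
      have : (v 0 * u 1 - v 1 * u 0) * N 0 0 = 0 := by linear_combination u 1 * e0 - v 1 * f0
      exact (mul_eq_zero.1 this).resolve_left hne
    · show N 0 1 = 0
      have : (v 0 * u 1 - v 1 * u 0) * N 0 1 = 0 := by linear_combination v 0 * f0 - u 0 * e0
      exact (mul_eq_zero.1 this).resolve_left hne
    · show N 1 0 = 0
      have : (v 0 * u 1 - v 1 * u 0) * N 1 0 = 0 := by linear_combination u 1 * e1 - v 1 * f1
      exact (mul_eq_zero.1 this).resolve_left hne
    · show N 1 1 = 0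
      have : (v 0 * u 1 - v 1 * u 0) * N 1 1 = 0 := by linear_combination v 0 * f1 - u 0 * e1
      exact (mul_eq_zero.1 this).resolve_left hne
  by_cases hv0 : v 0 = 0
  · have hv1 : v 1 ≠ 0 := by
      intro h1
      apply hv
      funext i
      fin_cases i
      · exact hv0
      · exact h1
    refine no_eigen_of_sq hns M hM v hv (u 1 / v 1) ?_
    rw [← hu]
    funext i
    fin_cases i
    · show u 0 = u 1 / v 1 * v 0
      rw [hv0, mul_zero]
      rw [hv0, zero_mul, zero_sub, neg_eq_zero] at hprop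
      exact (mul_eq_zero.1 hprop).resolve_left hv1
    · show u 1 = u 1 / v 1 * v 1
      field_simp
  · refine no_eigen_of_sq hns M hM v hv (u 0 / v 0) ?_
    rw [← hu]
    funext i
    fin_cases i
    · show u 0 = u 0 / v 0 * v 0
      field_simp
    · show u 1 = u 0 / v 0 * v 1
      field_simp
      linear_combination hprop

end PGL2Std


section PGL2Cent

variable {F : Type*} [Field F]

theorem ellM_comm_form (A : Matrix (Fin 2) (Fin 2) F)
    (h : A * (ellM F).val = (ellM F).val * A) : A 1 0 = -A 0 1 ∧ A 1 1 = A 0 0 := by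
  rw [ellM_val] at h
  have h00 := congrFun (congrFun h 0) 0
  have h01 := congrFun (congrFun h 0) 1
  simp [Matrix.mul_apply, Fin.sum_univ_two] at h00 h01
  exact ⟨by rw [← h00], by rw [← h01]⟩

theorem ellM_anti_form (A : Matrix (Fin 2) (Fin 2) F)
    (h : A * (ellM F).val = -((ellM F).val * A)) : A 1 0 = A 0 1 ∧ A 1 1 = -A 0 0 := by
  rw [ellM_val] at h
  have h00 := congrFun (congrFun h 0) 0
  have h01 := congrFun (congrFun h 0) 1
  rw [Matrix.neg_apply, Matrix.mul_apply, Matrix.mul_apply, Fin.sum_univ_two,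
    Fin.sum_univ_two] at h00 h01
  simp at h00 h01
  exact ⟨by linear_combination -h00, by linear_combination h01⟩

theorem mat2_eq (A B : Matrix (Fin 2) (Fin 2) F) (h00 : A 0 0 = B 0 0) (h01 : A 0 1 = B 0 1)
    (h10 : A 1 0 = B 1 0) (h11 : A 1 1 = B 1 1) : A = B := by
  ext i j
  fin_cases i <;> fin_cases j
  · exact h00
  · exact h01
  · exact h10
  · exact h11

theorem mul2_apply (A B : Matrix (Fin 2) (Fin 2) F) (i j : Fin 2) :
    (A * B) i j = A i 0 * B 0 j + A i 1 * B 1 j := by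
  rw [Matrix.mul_apply, Fin.sum_univ_two]

/-- Over `ZMod q` with `q ≡ 3 (mod 4)`, the `(q+1)`-st power of a matrix commuting or
anticommuting with the standard elliptic element is scalar. -/
theorem ell_pow_scalar {q : ℕ} [Fact q.Prime] (hq : q % 4 = 3) (A : GL (Fin 2) (ZMod q))
    (h : A.val * (ellM (ZMod q)).val = (ellM (ZMod q)).val * A.val ∨
      A.val * (ellM (ZMod q)).val = -((ellM (ZMod q)).val * A.val)) :
    ∃ c : ZMod q, (A ^ (q + 1)).val = c • (1 : Matrix (Fin 2) (Fin 2) (ZMod q)) := by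
  obtain ⟨M, hMdef⟩ : ∃ M, M = (ellM (ZMod q)).val := ⟨_, rfl⟩
  have hMsq : M * M = -1 := by rw [hMdef]; exact ellM_sq
  rcases h with h | h
  · obtain ⟨h10, h11⟩ := ellM_comm_form A.val h
    obtain ⟨a, ha⟩ : ∃ a, a = A.val 0 0 := ⟨_, rfl⟩
    obtain ⟨b, hb⟩ : ∃ b, b = A.val 0 1 := ⟨_, rfl⟩
    rw [← ha] at h11
    rw [← hb] at h10
    have hA : A.val = a • (1 : Matrix (Fin 2) (Fin 2) (ZMod q)) + b • M := by
      rw [hMdef, ellM_val]
      apply mat2_eq <;> simp [h10, h11, ha, hb]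
    have hMq : M ^ q = -M := by
      obtain ⟨j, hj⟩ : ∃ j, q = 2 * (2 * j + 1) + 1 := ⟨q / 4, by omega⟩
      have h1 : M ^ (2 * (2 * j + 1) + 1) = -M := by
        rw [pow_succ, pow_mul, sq, hMsq, Odd.neg_one_pow ⟨j, rfl⟩, neg_one_mul]
      exact (congrArg (fun n => M ^ n) hj).trans h1
    have hcomm : Commute (a • (1 : Matrix (Fin 2) (Fin 2) (ZMod q))) (b • M) :=
      ((Commute.one_left M).smul_left _).smul_right _
    have hAq : A.val ^ q = a • (1 : Matrix (Fin 2) (Fin 2) (ZMod q)) - b • M := by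
      rw [hA, add_pow_char_of_commute q hcomm, smul_pow, smul_pow, one_pow, ZMod.pow_card,
        ZMod.pow_card, hMq, smul_neg, ← sub_eq_add_neg]
    refine ⟨a * a + b * b, ?_⟩
    rw [Units.val_pow_eq_pow_val, pow_succ, hAq, hA, hMdef, ellM_val]
    apply mat2_eq <;> simp [Matrix.mul_apply, Fin.sum_univ_two] <;> ring
  · obtain ⟨h10, h11⟩ := ellM_anti_form A.val h
    have hsq : A.val * A.val
        = (A.val 0 0 * A.val 0 0 + A.val 0 1 * A.val 0 1) •
          (1 : Matrix (Fin 2) (Fin 2) (ZMod q)) := by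
      apply mat2_eq <;> simp [Matrix.mul_apply, Fin.sum_univ_two, h10, h11] <;> ring
    obtain ⟨j, hj⟩ : ∃ j, q + 1 = 2 * j := ⟨(q + 1) / 2, by omega⟩
    refine ⟨(A.val 0 0 * A.val 0 0 + A.val 0 1 * A.val 0 1) ^ j, ?_⟩
    rw [Units.val_pow_eq_pow_val, hj, pow_mul, sq, hsq, smul_pow, one_pow]

end PGL2Cent


section PGL2Sylow

open Pointwise

/-- The group `PGL₂(q)` as a quotient. -/
abbrev PGq (q : ℕ) [Fact q.Prime] : Type :=
  GL (Fin 2) (ZMod q) ⧸ Subgroup.center (GL (Fin 2) (ZMod q))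

variable {q : ℕ} [Fact q.Prime]

/-- The class of the standard elliptic element in `PGL₂(q)`. -/
def ellZ (q : ℕ) [Fact q.Prime] :
    PGq q :=
  QuotientGroup.mk (ellM (ZMod q))

theorem mem_cent_ellZ (A : GL (Fin 2) (ZMod q)) :
    (QuotientGroup.mk A : PGq q)
        ∈ Subgroup.centralizer {ellZ q}
      ↔ (A.val * (ellM (ZMod q)).val = (ellM (ZMod q)).val * A.val ∨
          A.val * (ellM (ZMod q)).val = -((ellM (ZMod q)).val * A.val)) := by
  rw [Subgroup.mem_centralizer_singleton_iff, ellZ, pgl_comm_sq_iff A _ ellM_sq]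

theorem ellZ_ne_one : ellZ q ≠ 1 := by
  intro h
  rw [ellZ, pgl_eq_one_iff] at h
  obtain ⟨c, hc⟩ := h
  have := congrFun (congrFun hc 0) 1
  rw [ellM_val] at this
  simp at this

theorem cent_ellZ_pgroup {k : ℕ} (hk : q + 1 = 2 ^ k) (hq4 : q % 4 = 3) :
    IsPGroup 2 (Subgroup.centralizer {ellZ q} :
      Subgroup (PGq q)) := by
  rintro ⟨c, hc⟩
  refine ⟨k, Subtype.ext ?_⟩
  obtain ⟨A, rfl⟩ := QuotientGroup.mk_surjective c
  rw [mem_cent_ellZ] at hc
  obtain ⟨s, hs⟩ := ell_pow_scalar hq4 A hc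
  show (QuotientGroup.mk A : PGq q)
    ^ 2 ^ k = 1
  rw [← hk, ← QuotientGroup.mk_pow, pgl_eq_one_iff]
  exact ⟨s, hs⟩

/-- The centre of the centralizer of the standard elliptic involution. -/
theorem cent_ellZ_center (hns : ¬ IsSquare (-1 : ZMod q)) (h2 : (2 : ZMod q) ≠ 0)
    (c : PGq q)
    (hc : c ∈ Subgroup.centralizer {ellZ q})
    (hcc : ∀ d ∈ Subgroup.centralizer {ellZ q}, c * d = d * c) : c = 1 ∨ c = ellZ q := by
  obtain ⟨A, rfl⟩ := QuotientGroup.mk_surjective c
  rw [mem_cent_ellZ] at hc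
  obtain ⟨W, hW⟩ : ∃ W : GL (Fin 2) (ZMod q), W.val = !![1, 0; 0, -1] :=
    ⟨⟨!![1, 0; 0, -1], !![1, 0; 0, -1],
      by ext i j; fin_cases i <;> fin_cases j <;> simp [Matrix.mul_apply, Fin.sum_univ_two],
      by ext i j; fin_cases i <;> fin_cases j <;> simp [Matrix.mul_apply, Fin.sum_univ_two]⟩,
      rfl⟩
  obtain ⟨T, hT⟩ : ∃ T : GL (Fin 2) (ZMod q), T.val = !![1, 1; -1, 1] :=
    ⟨Matrix.GeneralLinearGroup.mkOfDetNeZero !![1, 1; -1, 1]
      (by rw [Matrix.det_fin_two]; simp; exact_mod_cast h2), rfl⟩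
  have hWmem : (QuotientGroup.mk W :
      PGq q)
      ∈ Subgroup.centralizer {ellZ q} := by
    rw [mem_cent_ellZ]
    right
    rw [hW, ellM_val]
    apply mat2_eq <;> simp [Matrix.mul_apply, Fin.sum_univ_two]
  have hTmem : (QuotientGroup.mk T :
      PGq q)
      ∈ Subgroup.centralizer {ellZ q} := by
    rw [mem_cent_ellZ]
    left
    rw [hT, ellM_val]
    apply mat2_eq <;> simp [Matrix.mul_apply, Fin.sum_univ_two]
  have hA0 : A.val ≠ 0 := by
    intro h0
    have := A.mul_inv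
    rw [h0, Matrix.zero_mul] at this
    exact zero_ne_one this
  rcases hc with hc | hc
  · obtain ⟨h10, h11⟩ := ellM_comm_form A.val hc
    obtain ⟨s, hs⟩ := (pgl_comm_iff A W).1 (hcc _ hWmem)
    rw [hW] at hs
    have e00 := congrFun (congrFun hs 0) 0
    have e01 := congrFun (congrFun hs 0) 1
    rw [Matrix.smul_apply, mul2_apply, mul2_apply] at e00 e01
    simp at e00 e01
    by_cases ha : A.val 0 0 = 0
    · right
      have hb : A.val 0 1 ≠ 0 := by
        intro hb
        apply hA0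
        apply mat2_eq <;> simp [ha, hb, h10, h11]
      rw [ellZ, eq_comm, pgl_eq_iff]
      refine ⟨A.val 0 1, ?_⟩
      rw [ellM_val]
      apply mat2_eq <;> simp [ha, h10, h11]
    · left
      have hs1 : s = 1 := by
        have : (s - 1) * A.val 0 0 = 0 := by linear_combination -e00
        rcases mul_eq_zero.1 this with h | h
        · exact sub_eq_zero.1 h
        · exact absurd h ha
      have hb : A.val 0 1 = 0 := by
        rw [hs1] at e01
        have : (2 : ZMod q) * A.val 0 1 = 0 := by linear_combination -e01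
        exact (mul_eq_zero.1 this).resolve_left h2
      rw [pgl_eq_one_iff]
      refine ⟨A.val 0 0, ?_⟩
      apply mat2_eq <;> simp [hb, h10, h11]
  · exfalso
    obtain ⟨h10, h11⟩ := ellM_anti_form A.val hc
    obtain ⟨s, hs⟩ := (pgl_comm_iff A T).1 (hcc _ hTmem)
    rw [hT] at hs
    have e00 := congrFun (congrFun hs 0) 0
    have e01 := congrFun (congrFun hs 0) 1
    rw [Matrix.smul_apply, mul2_apply, mul2_apply] at e00 e01
    simp [h10, h11] at e00 e01
    -- e00 : a - b = s (a + b),  e01 : a + b = s (b - a)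
    have hab : A.val 0 0 = A.val 0 1 := by
      have : (1 + s * s) * (A.val 0 0 - A.val 0 1) = 0 := by
        linear_combination e00 + s * e01
      rcases mul_eq_zero.1 this with h | h
      · exact absurd ⟨s, by linear_combination -h⟩ hns
      · exact sub_eq_zero.1 h
    have ha0 : A.val 0 0 = 0 := by
      rw [hab] at e01
      have : (2 : ZMod q) * A.val 0 1 = 0 := by linear_combination e01
      rw [hab]
      exact (mul_eq_zero.1 this).resolve_left h2
    apply hA0
    apply mat2_eq <;> simp [ha0, ← hab, h10, h11]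

end PGL2Sylow


section PGL2Main

open Pointwise

variable {q : ℕ} [Fact q.Prime]

/-- The centralizer of the standard elliptic involution is a Sylow 2-subgroup. -/
theorem cent_ellZ_sylow {k : ℕ} (hk : q + 1 = 2 ^ k) (hq4 : q % 4 = 3)
    (hns : ¬ IsSquare (-1 : ZMod q)) (h2 : (2 : ZMod q) ≠ 0) :
    ∃ P : Sylow 2 (PGq q),
      (P : Subgroup (PGq q))
        = Subgroup.centralizer {ellZ q} := by
  obtain ⟨P, hP⟩ := (cent_ellZ_pgroup hk hq4).exists_le_sylow
  refine ⟨P, le_antisymm ?_ hP⟩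
  by_contra hnot
  have hlt : (Subgroup.centralizer {ellZ q}).subgroupOf (P : Subgroup (PGq q)) < ⊤ := by
    rw [lt_top_iff_ne_top, Ne, Subgroup.subgroupOf_eq_top]
    exact hnot
  have hnil : Group.IsNilpotent ↥(P : Subgroup (PGq q)) := P.isPGroup'.isNilpotent
  have hnc := (Group.normalizerCondition_of_isNilpotent (G := ↥(P : Subgroup (PGq q)))) _ hlt
  obtain ⟨g, hgN, hgK⟩ := SetLike.exists_of_lt hnc
  rw [Subgroup.mem_subgroupOf] at hgK
  have hnorm : ∀ g' : ↥(P : Subgroup (PGq q)),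
      g' ∈ Subgroup.normalizer
        (((Subgroup.centralizer {ellZ q}).subgroupOf (P : Subgroup (PGq q)) : Subgroup ↥(P : Subgroup (PGq q))) : Set ↥(P : Subgroup (PGq q))) →
      ∀ c ∈ Subgroup.centralizer {ellZ q},
        (g' : PGq q) * c * (g' : PGq q)⁻¹
          ∈ Subgroup.centralizer {ellZ q} := by
    intro g' hg' c hc
    have h1 := (Subgroup.mem_normalizer_iff.1 hg' ⟨c, hP hc⟩).1
      (by rw [Subgroup.mem_subgroupOf]; exact hc)
    rw [Subgroup.mem_subgroupOf] at h1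
    exact h1
  have hz0 : ellZ q ∈ Subgroup.centralizer {ellZ q} := by
    rw [Subgroup.mem_centralizer_singleton_iff]
  have hz' := hnorm g hgN _ hz0
  have hcen : ∀ d ∈ Subgroup.centralizer {ellZ q},
      ((g : PGq q) * ellZ q * (g : PGq q)⁻¹) * d
        = d * ((g : PGq q) * ellZ q * (g : PGq q)⁻¹) := by
    intro d hd
    have hd' := hnorm g⁻¹ (Subgroup.inv_mem _ hgN) d hd
    rw [Subgroup.mem_centralizer_singleton_iff] at hd'
    simp only [Subgroup.coe_inv, inv_inv] at hd'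
    calc (g : PGq q) * ellZ q * (g : PGq q)⁻¹ * d
        = (g : PGq q) * (ellZ q * ((g : PGq q)⁻¹ * d * (g : PGq q))) * (g : PGq q)⁻¹ := by group
      _ = (g : PGq q) * ((g : PGq q)⁻¹ * d * (g : PGq q) * ellZ q) * (g : PGq q)⁻¹ := by rw [hd']
      _ = d * ((g : PGq q) * ellZ q * (g : PGq q)⁻¹) := by group
  rcases cent_ellZ_center hns h2 _ hz' hcen with h | h
  · apply ellZ_ne_one (q := q)
    have : ellZ q = (g : PGq q)⁻¹ * ((g : PGq q) * ellZ q * (g : PGq q)⁻¹) * (g : PGq q) := by group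
    rw [this, h]
    group
  · apply hgK
    rw [Subgroup.mem_centralizer_singleton_iff]
    have : (g : PGq q) * ellZ q
        = ((g : PGq q) * ellZ q * (g : PGq q)⁻¹) * (g : PGq q) := by group
    rw [this, h]

theorem mem_conj_cent {G : Type*} [Group G] (y z n : G) :
    n ∈ MulAut.conj y • Subgroup.centralizer {z} ↔ n * (y * z * y⁻¹) = (y * z * y⁻¹) * n := by
  rw [mem_conj_smul', Subgroup.mem_centralizer_singleton_iff]
  constructor
  · intro h
    calc n * (y * z * y⁻¹) = y * (y⁻¹ * n * y * z) * y⁻¹ := by group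
      _ = y * (z * (y⁻¹ * n * y)) * y⁻¹ := by rw [h]
      _ = y * z * y⁻¹ * n := by group
  · intro h
    calc y⁻¹ * n * y * z = y⁻¹ * (n * (y * z * y⁻¹)) * y := by group
      _ = y⁻¹ * (y * z * y⁻¹ * n) * y := by rw [h]
      _ = z * (y⁻¹ * n * y) := by group

/-- In `PGL₂(q)`, `q ≥ 7` a Mersenne prime, two Sylow 2-subgroups meet non-trivially. -/
theorem pgl_mersenne {k : ℕ} (hk : q + 1 = 2 ^ k) (hq : 7 ≤ q)
    (H : Sylow 2 (PGq q))
    (x : PGq q) :
    (H : Subgroup (PGq q))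
      ⊓ MulAut.conj x • (H : Subgroup (PGq q)) ≠ ⊥ := by
  have hk3 : 3 ≤ k := by
    by_contra hlt
    have hk2 : k ≤ 2 := by omega
    have : 2 ^ k ≤ 2 ^ 2 := Nat.pow_le_pow_right (by norm_num) hk2
    omega
  have hq4 : q % 4 = 3 := by
    obtain ⟨j, rfl⟩ : ∃ j, k = j + 2 := ⟨k - 2, by omega⟩
    rw [pow_add] at hk
    omega
  have hns : ¬ IsSquare (-1 : ZMod q) := by
    rw [ZMod.exists_sq_eq_neg_one_iff]
    omega
  have h2 : (2 : ZMod q) ≠ 0 := by
    intro h
    have h' : ((2 : ℕ) : ZMod q) = 0 := by exact_mod_cast h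
    rw [ZMod.natCast_eq_zero_iff] at h'
    have := Nat.le_of_dvd (by norm_num) h'
    omega
  obtain ⟨P₀, hP₀⟩ := cent_ellZ_sylow hk hq4 hns h2
  obtain ⟨y, hy⟩ := MulAction.exists_smul_eq
    (PGq q) P₀ H
  have hH : (H : Subgroup (PGq q))
      = MulAut.conj y • Subgroup.centralizer {ellZ q} := by
    rw [← hy, Sylow.coe_subgroup_smul, hP₀]
  have hHx : MulAut.conj x • (H : Subgroup (PGq q))
      = MulAut.conj (x * y) • Subgroup.centralizer {ellZ q} := by
    rw [hH, smul_smul, ← map_mul]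
  obtain ⟨Y, rfl⟩ := QuotientGroup.mk_surjective y
  obtain ⟨X, rfl⟩ := QuotientGroup.mk_surjective x
  obtain ⟨M₁, hM₁⟩ : ∃ M₁, M₁ = Y * ellM (ZMod q) * Y⁻¹ := ⟨_, rfl⟩
  obtain ⟨M₂, hM₂⟩ : ∃ M₂, M₂ = (X * Y) * ellM (ZMod q) * (X * Y)⁻¹ := ⟨_, rfl⟩
  have hs1 : M₁.val * M₁.val = -1 := by rw [hM₁]; exact conj_sq Y _ ellM_sq
  have hs2 : M₂.val * M₂.val = -1 := by rw [hM₂]; exact conj_sq (X * Y) _ ellM_sq
  have hmem1 : ∀ n : PGq q,
      n ∈ (H : Subgroup (PGq q)) ↔ n * QuotientGroup.mk M₁ = QuotientGroup.mk M₁ * n := by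
    intro n
    rw [hH, mem_conj_cent, hM₁]
    rfl
  have hmem2 : ∀ n : PGq q,
      n ∈ MulAut.conj (QuotientGroup.mk X :
        PGq q) • (H : Subgroup (PGq q))
        ↔ n * QuotientGroup.mk M₂ = QuotientGroup.mk M₂ * n := by
    intro n
    rw [hHx, mem_conj_cent, hM₂]
    rfl
  suffices hex : ∃ n : PGq q,
      n ≠ 1 ∧ n * QuotientGroup.mk M₁ = QuotientGroup.mk M₁ * n ∧
        n * QuotientGroup.mk M₂ = QuotientGroup.mk M₂ * n by
    obtain ⟨n, hn1, hn2, hn3⟩ := hex
    intro hbot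
    have hn : n ∈ (H : Subgroup (PGq q)) ⊓ MulAut.conj (QuotientGroup.mk X :
        PGq q) • (H : Subgroup (PGq q)) :=
      ⟨(hmem1 n).2 hn2, (hmem2 n).2 hn3⟩
    rw [hbot, Subgroup.mem_bot] at hn
    exact hn1 hn
  by_cases hcomm : M₁.val * M₂.val = M₂.val * M₁.val
  · refine ⟨QuotientGroup.mk M₂, ?_, ?_, rfl⟩
    · intro h1
      rw [pgl_eq_one_iff] at h1
      obtain ⟨c, hc⟩ := h1
      rw [hc] at hs2
      apply hns
      refine ⟨c, ?_⟩
      have := congrFun (congrFun hs2 0) 0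
      simp at this
      linear_combination -this
    · rw [pgl_comm_sq_iff M₂ M₁ hs1]
      left
      exact hcomm.symm
  · obtain ⟨N, hN⟩ : ∃ N, N = M₁.val * M₂.val - M₂.val * M₁.val := ⟨_, rfl⟩
    have hN0 : N ≠ 0 := by
      rw [hN]
      exact sub_ne_zero.2 hcomm
    have hN1 : N * M₁.val = -(M₁.val * N) := by
      rw [hN, Matrix.sub_mul, Matrix.mul_sub, Matrix.mul_assoc M₂.val, hs1, ← Matrix.mul_assoc M₁.val
        M₁.val, hs1]
      simp only [Matrix.mul_neg, Matrix.mul_one, Matrix.neg_mul, Matrix.one_mul, Matrix.mul_assoc]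
      abel
    have hN2 : N * M₂.val = -(M₂.val * N) := by
      rw [hN, Matrix.sub_mul, Matrix.mul_sub, Matrix.mul_assoc M₁.val, hs2, ← Matrix.mul_assoc M₂.val
        M₂.val, hs2]
      simp only [Matrix.mul_neg, Matrix.mul_one, Matrix.neg_mul, Matrix.one_mul, Matrix.mul_assoc]
      abel
    have hdet := det_ne_zero_of_anticomm hns M₁.val N hs1 hN1 hN0
    obtain ⟨Nu, hNu⟩ : ∃ Nu : GL (Fin 2) (ZMod q), Nu.val = N :=
      ⟨Matrix.GeneralLinearGroup.mkOfDetNeZero N hdet, rfl⟩
    refine ⟨QuotientGroup.mk Nu, ?_, ?_, ?_⟩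
    · intro h1
      rw [pgl_eq_one_iff] at h1
      obtain ⟨c, hc⟩ := h1
      rw [hNu] at hc
      rw [hc] at hN1
      simp only [Matrix.smul_mul, Matrix.one_mul, Matrix.mul_smul, Matrix.mul_one] at hN1
      have h3 : (2 * c) • M₁.val = 0 := by
        rw [mul_smul, two_smul]
        nth_rewrite 1 [hN1]
        rw [neg_add_cancel]
      have hM0 : M₁.val ≠ 0 := by
        intro h0
        have := M₁.mul_inv
        rw [h0, Matrix.zero_mul] at this
        exact zero_ne_one this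
      rcases smul_eq_zero.1 h3 with h4 | h4
      · have hc0 : c = 0 := (mul_eq_zero.1 h4).resolve_left h2
        apply hN0
        rw [hc, hc0, zero_smul]
      · exact hM0 h4
    · rw [pgl_comm_sq_iff Nu M₁ hs1, hNu]
      right
      exact hN1
    · rw [pgl_comm_sq_iff Nu M₂ hs2, hNu]
      right
      exact hN2

end PGL2Main

end Cfsg.Agent.Lib.Helper16
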