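import Mathlib
import Cfsg.Agent.Lib.Helper16.SpinForms
import Cfsg.Agent.Lib.Helper16.SpinIndex

set_option autoImplicit false
set_option linter.unusedSectionVars false

namespace Cfsg.Agent.Lib.Helper16

open Matrix

section PermIso

variable {ι : Type} [Fintype ι] [DecidableEq ι] {F : Type*} [Field F]
variable (Q : QuadraticForm F (ι → F))

/-- A permutation matrix as an element of `GL`. -/
noncomputable def permGL (σ : Equiv.Perm ι) : Matrix.GeneralLinearGroup ι F :=
  ⟨σ.permMatrix F, σ⁻¹.permMatrix F, by rw [← Matrix.permMatrix_mul]; simp,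
    by rw [← Matrix.permMatrix_mul]; simp⟩

/-- A permutation of the coordinates preserving the form, as an isometry. -/
noncomputable def permIso (σ : Equiv.Perm ι) (hσ : ∀ x : ι → F, Q (x ∘ σ) = Q x) :
    ↥(Cfsg.isometryGroup F (⇑Q)) :=
  ⟨permGL σ, (mem_isometryGroup_iff Q _).2 fun x => by
    show Q (σ.permMatrix F *ᵥ x) = Q x
    rw [Matrix.permMatrix_mulVec]
    exact hσ x⟩

theorem permIso_mulVec (σ : Equiv.Perm ι) (hσ : ∀ x : ι → F, Q (x ∘ σ) = Q x) (x : ι → F) :
    (((permIso Q σ hσ : ↥(Cfsg.isometryGroup F (⇑Q))) : Matrix.GeneralLinearGroup ι F) :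
      Matrix ι ι F) *ᵥ x = x ∘ σ := by
  show σ.permMatrix F *ᵥ x = x ∘ σ
  rw [Matrix.permMatrix_mulVec]

/-- Extensionality for isometries via the action on vectors. -/
theorem isomG_ext_mulVec {g h : ↥(Cfsg.isometryGroup F (⇑Q))}
    (e : ∀ x : ι → F, ((g : Matrix.GeneralLinearGroup ι F) : Matrix ι ι F) *ᵥ x
      = ((h : Matrix.GeneralLinearGroup ι F) : Matrix ι ι F) *ᵥ x) : g = h := by
  apply isomG_ext
  apply Matrix.mulVec_injective
  funext x
  exact e x

end PermIso


section PlusSwap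

variable (t : ℕ) (F : Type*) [Field F]

/-- The pair index of a coordinate. -/
def plusIdx {m : ℕ} : Fin m ⊕ Fin m → Fin m := Sum.elim id id

/-- Swap the two coordinates in each of the first `t` pairs. -/
def halfSwapFun (k : Fin (t + t) ⊕ Fin (t + t)) : Fin (t + t) ⊕ Fin (t + t) :=
  if (plusIdx k).val < t then k.swap else k

theorem halfSwapFun_invol : Function.Involutive (halfSwapFun t) := by
  intro k
  unfold halfSwapFun
  rcases k with a | a <;> by_cases h : a.val < t <;> simp [plusIdx, h]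

/-- Shift the pair index by `t`. -/
def shiftFun (j : Fin (t + t)) : Fin (t + t) :=
  if h : j.val < t then ⟨j.val + t, by omega⟩ else ⟨j.val - t, by omega⟩

theorem shiftFun_lt {j : Fin (t + t)} (h : j.val < t) : (shiftFun t j).val = j.val + t := by
  unfold shiftFun
  rw [dif_pos h]

theorem shiftFun_ge {j : Fin (t + t)} (h : ¬ j.val < t) : (shiftFun t j).val = j.val - t := by
  unfold shiftFun
  rw [dif_neg h]

theorem shiftFun_invol : Function.Involutive (shiftFun t) := by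
  intro j
  apply Fin.ext
  by_cases h : j.val < t
  · have h1 := shiftFun_lt t h
    rw [shiftFun_ge t (by omega), h1]
    omega
  · have h1 := shiftFun_ge t h
    have := j.2
    rw [shiftFun_lt t (by omega), h1]
    omega

/-- The permutation swapping the first `t` pairs. -/
def halfSwapPerm : Equiv.Perm (Fin (t + t) ⊕ Fin (t + t)) := (halfSwapFun_invol t).toPerm

/-- The permutation shifting the pair index. -/
def shiftPerm : Equiv.Perm (Fin (t + t) ⊕ Fin (t + t)) :=
  Equiv.sumCongr (shiftFun_invol t).toPerm (shiftFun_invol t).toPerm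

theorem halfSwap_quad (x : Fin (t + t) ⊕ Fin (t + t) → F) :
    qfPlus (t + t) F (x ∘ halfSwapPerm t) = qfPlus (t + t) F x := by
  show Cfsg.quadFormPlus (t + t) F _ = Cfsg.quadFormPlus (t + t) F _
  unfold Cfsg.quadFormPlus
  refine Finset.sum_congr rfl fun i _ => ?_
  show x (halfSwapFun t (Sum.inl i)) * x (halfSwapFun t (Sum.inr i)) = _
  unfold halfSwapFun
  by_cases h : i.val < t
  · simp [plusIdx, h, mul_comm]
  · simp [plusIdx, h]

theorem shift_quad (x : Fin (t + t) ⊕ Fin (t + t) → F) :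
    qfPlus (t + t) F (x ∘ shiftPerm t) = qfPlus (t + t) F x := by
  show Cfsg.quadFormPlus (t + t) F _ = Cfsg.quadFormPlus (t + t) F _
  unfold Cfsg.quadFormPlus
  exact Equiv.sum_comp (shiftFun_invol t).toPerm (fun i => x (Sum.inl i) * x (Sum.inr i))

theorem sumComm_quad (m : ℕ) (x : Fin m ⊕ Fin m → F) :
    qfPlus m F (x ∘ Equiv.sumComm (Fin m) (Fin m)) = qfPlus m F x := by
  show Cfsg.quadFormPlus m F _ = Cfsg.quadFormPlus m F _
  unfold Cfsg.quadFormPlus
  refine Finset.sum_congr rfl fun i _ => ?_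
  simp [mul_comm]

theorem swap_word (k : Fin (t + t) ⊕ Fin (t + t)) :
    shiftPerm t (halfSwapPerm t (shiftPerm t (halfSwapPerm t k))) = k.swap := by
  have hs : ∀ k, halfSwapPerm t k = halfSwapFun t k := fun _ => rfl
  have hl : ∀ a, shiftPerm t (Sum.inl a) = Sum.inl (shiftFun t a) := fun _ => rfl
  have hr : ∀ a, shiftPerm t (Sum.inr a) = Sum.inr (shiftFun t a) := fun _ => rfl
  have hi : ∀ a, shiftFun t (shiftFun t a) = a := shiftFun_invol t
  rcases k with a | a
  · by_cases h : a.val < t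
    · have h1 := shiftFun_lt t h
      have e1 : halfSwapFun t (Sum.inl a) = Sum.inr a := by simp [halfSwapFun, plusIdx, h]
      have e2 : halfSwapFun t (Sum.inr (shiftFun t a)) = Sum.inr (shiftFun t a) := by
        unfold halfSwapFun
        rw [if_neg]
        simp only [plusIdx, Sum.elim_inr, id]
        omega
      rw [hs (Sum.inl a), e1, hr, hs, e2, hr, hi]
      rfl
    · have h1 := shiftFun_ge t h
      have := a.2
      have e1 : halfSwapFun t (Sum.inl a) = Sum.inl a := by simp [halfSwapFun, plusIdx, h]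
      have e2 : halfSwapFun t (Sum.inl (shiftFun t a)) = Sum.inr (shiftFun t a) := by
        unfold halfSwapFun
        rw [if_pos]
        · rfl
        · simp only [plusIdx, Sum.elim_inl, id]
          omega
      rw [hs (Sum.inl a), e1, hl, hs, e2, hr, hi]
      rfl
  · by_cases h : a.val < t
    · have h1 := shiftFun_lt t h
      have e1 : halfSwapFun t (Sum.inr a) = Sum.inl a := by simp [halfSwapFun, plusIdx, h]
      have e2 : halfSwapFun t (Sum.inl (shiftFun t a)) = Sum.inl (shiftFun t a) := by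
        unfold halfSwapFun
        rw [if_neg]
        simp only [plusIdx, Sum.elim_inl, id]
        omega
      rw [hs (Sum.inr a), e1, hl, hs, e2, hl, hi]
      rfl
    · have h1 := shiftFun_ge t h
      have := a.2
      have e1 : halfSwapFun t (Sum.inr a) = Sum.inr a := by simp [halfSwapFun, plusIdx, h]
      have e2 : halfSwapFun t (Sum.inr (shiftFun t a)) = Sum.inl (shiftFun t a) := by
        unfold halfSwapFun
        rw [if_pos]
        · rfl
        · simp only [plusIdx, Sum.elim_inr, id]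
          omega
      rw [hs (Sum.inr a), e1, hr, hs, e2, hl, hi]
      rfl

open scoped commutatorElement in
/-- For even `m = t + t`, the interchange of the two standard maximal totally singular
subspaces lies in `Ω`. -/
theorem plus_swap_mem :
    ∃ g : ↥(Cfsg.isometryGroup F (⇑(qfPlus (t + t) F))),
      g ∈ Cfsg.Omega F (⇑(qfPlus (t + t) F)) ∧
      ∀ x : Fin (t + t) ⊕ Fin (t + t) → F,
        ((g : Matrix.GeneralLinearGroup (Fin (t + t) ⊕ Fin (t + t)) F) :
          Matrix (Fin (t + t) ⊕ Fin (t + t)) (Fin (t + t) ⊕ Fin (t + t)) F) *ᵥ x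
          = x ∘ Sum.swap := by
  obtain ⟨T, hT⟩ : ∃ T, T = permIso (qfPlus (t + t) F) (halfSwapPerm t) (halfSwap_quad t F) :=
    ⟨_, rfl⟩
  obtain ⟨P, hP⟩ : ∃ P, P = permIso (qfPlus (t + t) F) (shiftPerm t) (shift_quad t F) :=
    ⟨_, rfl⟩
  have aT : ∀ x : Fin (t + t) ⊕ Fin (t + t) → F,
      ((T : Matrix.GeneralLinearGroup (Fin (t + t) ⊕ Fin (t + t)) F) :
          Matrix (Fin (t + t) ⊕ Fin (t + t)) (Fin (t + t) ⊕ Fin (t + t)) F) *ᵥ x
        = x ∘ halfSwapPerm t := by
    intro x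
    rw [hT, permIso_mulVec]
  have aP : ∀ x : Fin (t + t) ⊕ Fin (t + t) → F,
      ((P : Matrix.GeneralLinearGroup (Fin (t + t) ⊕ Fin (t + t)) F) :
          Matrix (Fin (t + t) ⊕ Fin (t + t)) (Fin (t + t) ⊕ Fin (t + t)) F) *ᵥ x
        = x ∘ shiftPerm t := by
    intro x
    rw [hP, permIso_mulVec]
  have hTT : T * T = 1 := by
    apply isomG_ext_mulVec
    intro x
    rw [isomG_mul_coe, ← Matrix.mulVec_mulVec, aT, aT, isomG_one_coe, Matrix.one_mulVec]
    funext k
    show x (halfSwapFun t (halfSwapFun t k)) = x k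
    rw [halfSwapFun_invol t k]
  have hPP : P * P = 1 := by
    apply isomG_ext_mulVec
    intro x
    rw [isomG_mul_coe, ← Matrix.mulVec_mulVec, aP, aP, isomG_one_coe, Matrix.one_mulVec]
    funext k
    show x (shiftPerm t (shiftPerm t k)) = x k
    congr 1
    rcases k with a | a
    · show Sum.inl (shiftFun t (shiftFun t a)) = _
      rw [shiftFun_invol t a]
    · show Sum.inr (shiftFun t (shiftFun t a)) = _
      rw [shiftFun_invol t a]
  have hTi : T⁻¹ = T := inv_eq_of_mul_eq_one_right hTT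
  have hPi : P⁻¹ = P := inv_eq_of_mul_eq_one_right hPP
  refine ⟨⁅T, P⁆, Subgroup.commutator_mem_commutator (Subgroup.mem_top T) (Subgroup.mem_top P),
    fun x => ?_⟩
  rw [commutatorElement_def, hTi, hPi, isomG_mul_coe, isomG_mul_coe, isomG_mul_coe,
    ← Matrix.mulVec_mulVec, ← Matrix.mulVec_mulVec, ← Matrix.mulVec_mulVec, aP, aT, aP, aT]
  funext k
  show x (shiftPerm t (halfSwapPerm t (shiftPerm t (halfSwapPerm t k)))) = x k.swap
  rw [swap_word]

end PlusSwap


section PlusBlocks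

variable (m : ℕ) (F : Type*) [Field F]

/-- Alternating matrices: zero diagonal and skew-symmetric. -/
def IsAltM {n : Type*} (S : Matrix n n F) : Prop :=
  (∀ i, S i i = 0) ∧ ∀ i j, S i j + S j i = 0

theorem IsAltM.transpose {n : Type*} {S : Matrix n n F} (h : IsAltM F S) : IsAltM F Sᵀ :=
  ⟨fun i => h.1 i, fun i j => h.2 j i⟩

/-- The trace of a product of two alternating matrices vanishes in characteristic two. -/
theorem trace_alt_mul {n : Type*} [Fintype n] [DecidableEq n] (h2 : (2 : F) = 0)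
    (S T : Matrix n n F) (hS : IsAltM F S) (hT : IsAltM F T) : Matrix.trace (S * T) = 0 := by
  have e : Matrix.trace (S * T) = ∑ p : n × n, S p.1 p.2 * T p.2 p.1 := by
    rw [Fintype.sum_prod_type]
    simp [Matrix.trace, Matrix.mul_apply]
  rw [e]
  refine Finset.sum_involution (fun p _ => p.swap) ?_ ?_ (fun p _ => Finset.mem_univ _)
    (fun p _ => Prod.swap_swap p)
  · intro p _
    simp only [Prod.fst_swap, Prod.snd_swap]
    linear_combination T p.1 p.2 * hS.2 p.1 p.2 - S p.1 p.2 * hT.2 p.1 p.2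
      + (S p.1 p.2 * T p.2 p.1) * h2
  · intro p _ hp hsw
    apply hp
    have h12 : p.2 = p.1 := congrArg Prod.fst hsw
    rw [h12, hS.1, zero_mul]

theorem trace_four {n : Type*} [Fintype n] [DecidableEq n] (P Q R S : Matrix n n F) :
    Matrix.trace (Pᵀ * Qᵀ * (R * S)) = Matrix.trace ((Qᵀ * R) * (S * Pᵀ)) := by
  rw [Matrix.mul_assoc, Matrix.trace_mul_comm]
  simp only [Matrix.mul_assoc]

/-- The additivity of the Dickson trace, at the level of blocks. -/
theorem dickson_add_aux {n : Type*} [Fintype n] [DecidableEq n] (h2 : (2 : F) = 0)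
    (A B C D A' B' C' D' : Matrix n n F)
    (h1 : IsAltM F (Aᵀ * C)) (h2' : IsAltM F (Bᵀ * D)) (h3 : Aᵀ * D + Cᵀ * B = 1)
    (k1 : IsAltM F (B' * A'ᵀ)) (k2 : IsAltM F (D' * C'ᵀ)) (k3 : D' * A'ᵀ + C' * B'ᵀ = 1) :
    Matrix.trace ((A * B' + B * D')ᵀ * (C * A' + D * C'))
      = Matrix.trace (Bᵀ * C) + Matrix.trace (B'ᵀ * C') := by
  have k1' : IsAltM F (A' * B'ᵀ) := by
    have := k1.transpose
    rwa [Matrix.transpose_mul, Matrix.transpose_transpose] at this
  have k2' : IsAltM F (C' * D'ᵀ) := by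
    have := k2.transpose
    rwa [Matrix.transpose_mul, Matrix.transpose_transpose] at this
  have k3' : A' * D'ᵀ + B' * C'ᵀ = 1 := by
    have := congrArg Matrix.transpose k3
    rwa [Matrix.transpose_add, Matrix.transpose_mul, Matrix.transpose_mul,
      Matrix.transpose_transpose, Matrix.transpose_transpose, Matrix.transpose_one] at this
  have e1 : Aᵀ * D = 1 - Cᵀ * B := eq_sub_of_add_eq h3
  have e2 : A' * D'ᵀ = 1 - B' * C'ᵀ := eq_sub_of_add_eq k3'
  have t1 : Matrix.trace (B'ᵀ * Aᵀ * (C * A')) = 0 := by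
    rw [trace_four]
    exact trace_alt_mul F h2 _ _ h1 k1'
  have t4 : Matrix.trace (D'ᵀ * Bᵀ * (D * C')) = 0 := by
    rw [trace_four]
    exact trace_alt_mul F h2 _ _ h2' k2'
  have t2 : Matrix.trace (B'ᵀ * Aᵀ * (D * C'))
      = Matrix.trace (B'ᵀ * C') - Matrix.trace (Cᵀ * B * (C' * B'ᵀ)) := by
    rw [trace_four, e1, Matrix.sub_mul, Matrix.one_mul, Matrix.trace_sub,
      Matrix.trace_mul_comm C' B'ᵀ]
  have t3 : Matrix.trace (D'ᵀ * Bᵀ * (C * A'))
      = Matrix.trace (Bᵀ * C) - Matrix.trace (Bᵀ * C * (B' * C'ᵀ)) := by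
    rw [trace_four, e2, Matrix.mul_sub, Matrix.mul_one, Matrix.trace_sub]
  have t5 : Matrix.trace (Cᵀ * B * (C' * B'ᵀ)) = Matrix.trace (Bᵀ * C * (B' * C'ᵀ)) := by
    rw [← Matrix.trace_transpose (Cᵀ * B * (C' * B'ᵀ)), Matrix.transpose_mul,
      Matrix.transpose_mul, Matrix.transpose_mul, Matrix.transpose_transpose,
      Matrix.transpose_transpose, Matrix.trace_mul_comm]
  rw [Matrix.transpose_add, Matrix.transpose_mul, Matrix.transpose_mul, Matrix.add_mul,
    Matrix.mul_add, Matrix.mul_add, Matrix.trace_add, Matrix.trace_add, Matrix.trace_add,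
    t1, t2, t3, t4, t5]
  linear_combination (-(Matrix.trace (Bᵀ * C * (B' * C'ᵀ)))) * h2

variable {m F}

/-- The block relations satisfied by an isometry of the hyperbolic form. -/
theorem plus_rel (M : Matrix (Fin m ⊕ Fin m) (Fin m ⊕ Fin m) F)
    (hM : ∀ x, qfPlus m F (M *ᵥ x) = qfPlus m F x) :
    IsAltM F (M.toBlocks₁₁ᵀ * M.toBlocks₂₁) ∧ IsAltM F (M.toBlocks₁₂ᵀ * M.toBlocks₂₂) ∧
      M.toBlocks₁₁ᵀ * M.toBlocks₂₂ + M.toBlocks₂₁ᵀ * M.toBlocks₁₂ = 1 := by
  have hpol : ∀ x y, QuadraticMap.polar (⇑(qfPlus m F)) (M *ᵥ x) (M *ᵥ y)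
      = QuadraticMap.polar (⇑(qfPlus m F)) x y := by
    intro x y
    unfold QuadraticMap.polar
    rw [← Matrix.mulVec_add, hM, hM, hM]
  have key : ∀ a b : Fin m ⊕ Fin m,
      ∑ k : Fin m, (M (Sum.inl k) a * M (Sum.inr k) b + M (Sum.inl k) b * M (Sum.inr k) a)
        = QuadraticMap.polar (⇑(qfPlus m F)) (Pi.single a 1) (Pi.single b 1) := by
    intro a b
    rw [← hpol, qfPlus_coe, polar_plus]
    simp
  have keyQ : ∀ a : Fin m ⊕ Fin m,
      ∑ k : Fin m, M (Sum.inl k) a * M (Sum.inr k) a = qfPlus m F (Pi.single a 1) := by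
    intro a
    rw [← hM]
    show _ = Cfsg.quadFormPlus m F _
    unfold Cfsg.quadFormPlus
    simp
  refine ⟨⟨fun i => ?_, fun i j => ?_⟩, ⟨fun i => ?_, fun i j => ?_⟩, ?_⟩
  · have := keyQ (Sum.inl i)
    rw [qfPlus_q_inl] at this
    simpa [Matrix.mul_apply, Matrix.toBlocks₁₁, Matrix.toBlocks₂₁] using this
  · have := key (Sum.inl i) (Sum.inl j)
    rw [qfPlus_polar_inl] at this
    simp only [Matrix.mul_apply, Matrix.toBlocks₁₁, Matrix.toBlocks₂₁, Matrix.transpose_apply,
      Matrix.of_apply]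
    rw [← Finset.sum_add_distrib]
    simpa using this
  · have := keyQ (Sum.inr i)
    rw [qfPlus_q_inr] at this
    simpa [Matrix.mul_apply, Matrix.toBlocks₁₂, Matrix.toBlocks₂₂] using this
  · have := key (Sum.inr i) (Sum.inr j)
    rw [qfPlus_polar_inr] at this
    simp only [Matrix.mul_apply, Matrix.toBlocks₁₂, Matrix.toBlocks₂₂, Matrix.transpose_apply,
      Matrix.of_apply]
    rw [← Finset.sum_add_distrib]
    simpa using this
  · ext i j
    have := key (Sum.inl i) (Sum.inr j)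
    rw [qfPlus_polar_inl] at this
    simp only [Matrix.add_apply, Matrix.mul_apply, Matrix.toBlocks₁₁, Matrix.toBlocks₂₂,
      Matrix.toBlocks₂₁, Matrix.toBlocks₁₂, Matrix.transpose_apply, Matrix.of_apply]
    rw [← Finset.sum_add_distrib]
    rw [Matrix.one_apply]
    rw [Pi.single_apply] at this
    simp only [Sum.inr.injEq] at this
    rw [← this]
    refine Finset.sum_congr rfl fun k _ => ?_
    ring

end PlusBlocks


section Dickson

variable {m : ℕ} {F : Type*} [Field F]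

/-- The matrix of the inverse of an isometry of the hyperbolic form. -/
theorem plus_inv_blocks (g : ↥(Cfsg.isometryGroup F (⇑(qfPlus m F)))) :
    (((g⁻¹ : ↥(Cfsg.isometryGroup F (⇑(qfPlus m F)))) :
        Matrix.GeneralLinearGroup (Fin m ⊕ Fin m) F) : Matrix (Fin m ⊕ Fin m) (Fin m ⊕ Fin m) F)
      = Matrix.fromBlocks
          (((g : Matrix.GeneralLinearGroup (Fin m ⊕ Fin m) F) :
            Matrix (Fin m ⊕ Fin m) (Fin m ⊕ Fin m) F).toBlocks₂₂)ᵀ
          (((g : Matrix.GeneralLinearGroup (Fin m ⊕ Fin m) F) :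
            Matrix (Fin m ⊕ Fin m) (Fin m ⊕ Fin m) F).toBlocks₁₂)ᵀ
          (((g : Matrix.GeneralLinearGroup (Fin m ⊕ Fin m) F) :
            Matrix (Fin m ⊕ Fin m) (Fin m ⊕ Fin m) F).toBlocks₂₁)ᵀ
          (((g : Matrix.GeneralLinearGroup (Fin m ⊕ Fin m) F) :
            Matrix (Fin m ⊕ Fin m) (Fin m ⊕ Fin m) F).toBlocks₁₁)ᵀ := by
  obtain ⟨M, hM⟩ : ∃ M, M = ((g : Matrix.GeneralLinearGroup (Fin m ⊕ Fin m) F) :
      Matrix (Fin m ⊕ Fin m) (Fin m ⊕ Fin m) F) := ⟨_, rfl⟩
  obtain ⟨M', hM'⟩ : ∃ M', M' = (((g⁻¹ : ↥(Cfsg.isometryGroup F (⇑(qfPlus m F)))) :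
      Matrix.GeneralLinearGroup (Fin m ⊕ Fin m) F) :
      Matrix (Fin m ⊕ Fin m) (Fin m ⊕ Fin m) F) := ⟨_, rfl⟩
  rw [← hM, ← hM']
  have hMM' : M * M' = 1 := by
    rw [hM, hM', ← isomG_mul_coe, mul_inv_cancel, isomG_one_coe]
  obtain ⟨r1, r2, r3⟩ := plus_rel M (fun x => by rw [hM]; exact isomG_map (qfPlus m F) g x)
  have hNM : Matrix.fromBlocks M.toBlocks₂₂ᵀ M.toBlocks₁₂ᵀ M.toBlocks₂₁ᵀ M.toBlocks₁₁ᵀ * M
      = 1 := by
    conv_lhs => rw [← Matrix.fromBlocks_toBlocks M]
    simp only [Matrix.toBlocks_fromBlocks₁₁, Matrix.toBlocks_fromBlocks₁₂,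
      Matrix.toBlocks_fromBlocks₂₁, Matrix.toBlocks_fromBlocks₂₂]
    rw [Matrix.fromBlocks_multiply, ← Matrix.fromBlocks_one]
    congr 1
    · have := congrArg Matrix.transpose r3
      rwa [Matrix.transpose_add, Matrix.transpose_mul, Matrix.transpose_mul,
        Matrix.transpose_transpose, Matrix.transpose_transpose, Matrix.transpose_one] at this
    · ext i j
      have := r2.2 j i
      simp only [Matrix.add_apply, Matrix.mul_apply, Matrix.transpose_apply, Matrix.zero_apply]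
        at this ⊢
      rw [← this]
      congr 1
      exact Finset.sum_congr rfl fun k _ => mul_comm _ _
    · ext i j
      have := r1.2 j i
      simp only [Matrix.add_apply, Matrix.mul_apply, Matrix.transpose_apply, Matrix.zero_apply]
        at this ⊢
      rw [← this]
      congr 1
      exact Finset.sum_congr rfl fun k _ => mul_comm _ _
    · rw [add_comm]
      exact r3
  calc M' = (Matrix.fromBlocks M.toBlocks₂₂ᵀ M.toBlocks₁₂ᵀ M.toBlocks₂₁ᵀ M.toBlocks₁₁ᵀ * M) * M' := by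
        rw [hNM, Matrix.one_mul]
    _ = _ := by rw [Matrix.mul_assoc, hMM', Matrix.mul_one]

/-- The Dickson trace of a matrix. -/
def dicksonT (M : Matrix (Fin m ⊕ Fin m) (Fin m ⊕ Fin m) F) : F :=
  Matrix.trace (M.toBlocks₁₂ᵀ * M.toBlocks₂₁)

theorem dickson_mul (h2 : (2 : F) = 0) (g h : ↥(Cfsg.isometryGroup F (⇑(qfPlus m F)))) :
    dicksonT (((g * h : ↥(Cfsg.isometryGroup F (⇑(qfPlus m F)))) :
        Matrix.GeneralLinearGroup (Fin m ⊕ Fin m) F) : Matrix (Fin m ⊕ Fin m) (Fin m ⊕ Fin m) F)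
      = dicksonT ((g : Matrix.GeneralLinearGroup (Fin m ⊕ Fin m) F) :
            Matrix (Fin m ⊕ Fin m) (Fin m ⊕ Fin m) F)
        + dicksonT ((h : Matrix.GeneralLinearGroup (Fin m ⊕ Fin m) F) :
            Matrix (Fin m ⊕ Fin m) (Fin m ⊕ Fin m) F) := by
  obtain ⟨M, hM⟩ : ∃ M, M = ((g : Matrix.GeneralLinearGroup (Fin m ⊕ Fin m) F) :
      Matrix (Fin m ⊕ Fin m) (Fin m ⊕ Fin m) F) := ⟨_, rfl⟩
  obtain ⟨M', hM'⟩ : ∃ M', M' = ((h : Matrix.GeneralLinearGroup (Fin m ⊕ Fin m) F) :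
      Matrix (Fin m ⊕ Fin m) (Fin m ⊕ Fin m) F) := ⟨_, rfl⟩
  rw [isomG_mul_coe, ← hM, ← hM']
  obtain ⟨r1, r2, r3⟩ := plus_rel M (fun x => by rw [hM]; exact isomG_map (qfPlus m F) g x)
  obtain ⟨s1, s2, s3⟩ := plus_rel _ (fun x => isomG_map (qfPlus m F) h⁻¹ x)
  rw [plus_inv_blocks, ← hM'] at s1 s2 s3
  simp only [Matrix.toBlocks_fromBlocks₁₁, Matrix.toBlocks_fromBlocks₁₂,
    Matrix.toBlocks_fromBlocks₂₁, Matrix.toBlocks_fromBlocks₂₂, Matrix.transpose_transpose]
    at s1 s2 s3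
  have hprod : M * M' = Matrix.fromBlocks
      (M.toBlocks₁₁ * M'.toBlocks₁₁ + M.toBlocks₁₂ * M'.toBlocks₂₁)
      (M.toBlocks₁₁ * M'.toBlocks₁₂ + M.toBlocks₁₂ * M'.toBlocks₂₂)
      (M.toBlocks₂₁ * M'.toBlocks₁₁ + M.toBlocks₂₂ * M'.toBlocks₂₁)
      (M.toBlocks₂₁ * M'.toBlocks₁₂ + M.toBlocks₂₂ * M'.toBlocks₂₂) := by
    rw [← Matrix.fromBlocks_multiply, Matrix.fromBlocks_toBlocks, Matrix.fromBlocks_toBlocks]
  unfold dicksonT
  rw [hprod, Matrix.toBlocks_fromBlocks₁₂, Matrix.toBlocks_fromBlocks₂₁]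
  exact dickson_add_aux F h2 _ _ _ _ _ _ _ _ r1 r2 r3 s2 s1 s3

/-- The Dickson invariant as a homomorphism, in characteristic two. -/
noncomputable def dicksonHom (h2 : (2 : F) = 0) :
    ↥(Cfsg.isometryGroup F (⇑(qfPlus m F))) →* Multiplicative F where
  toFun g := Multiplicative.ofAdd (dicksonT ((g : Matrix.GeneralLinearGroup (Fin m ⊕ Fin m) F) :
            Matrix (Fin m ⊕ Fin m) (Fin m ⊕ Fin m) F))
  map_one' := by
    rw [isomG_one_coe]
    have : (1 : Matrix (Fin m ⊕ Fin m) (Fin m ⊕ Fin m) F).toBlocks₁₂ = 0 := by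
      rw [← Matrix.fromBlocks_one, Matrix.toBlocks_fromBlocks₁₂]
    unfold dicksonT
    rw [this]
    simp
  map_mul' g h := by
    rw [dickson_mul h2, ofAdd_add]

theorem dickson_of_mem_omega (h2 : (2 : F) = 0) {g : ↥(Cfsg.isometryGroup F (⇑(qfPlus m F)))}
    (hg : g ∈ Cfsg.Omega F (⇑(qfPlus m F))) :
    dicksonT ((g : Matrix.GeneralLinearGroup (Fin m ⊕ Fin m) F) :
            Matrix (Fin m ⊕ Fin m) (Fin m ⊕ Fin m) F) = 0 := by
  have hk := Abelianization.commutator_subset_ker (dicksonHom (m := m) h2) hg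
  rw [MonoidHom.mem_ker] at hk
  exact hk

/-- The determinant of the block interchange. -/
theorem det_blockSwap (h2 : (2 : F) ≠ 0) :
    (Matrix.fromBlocks (0 : Matrix (Fin m) (Fin m) F) (1 : Matrix (Fin m) (Fin m) F)
      (1 : Matrix (Fin m) (Fin m) F) (0 : Matrix (Fin m) (Fin m) F)).det = (-1) ^ m := by
  obtain ⟨U, hUdef⟩ : ∃ U, U = Matrix.fromBlocks (1 : Matrix (Fin m) (Fin m) F)
      (1 : Matrix (Fin m) (Fin m) F) (1 : Matrix (Fin m) (Fin m) F)
      (-1 : Matrix (Fin m) (Fin m) F) := ⟨_, rfl⟩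
  have hU : U.det ≠ 0 := by
    intro h0
    have hsq : U * U
        = Matrix.fromBlocks ((2 : F) • (1 : Matrix (Fin m) (Fin m) F))
            (0 : Matrix (Fin m) (Fin m) F) (0 : Matrix (Fin m) (Fin m) F)
            ((2 : F) • (1 : Matrix (Fin m) (Fin m) F)) := by
      rw [hUdef, Matrix.fromBlocks_multiply]
      congr 1
      · simp [two_smul]
      · simp
      · simp
      · simp [two_smul]
    have hd := congrArg Matrix.det hsq
    rw [Matrix.det_mul, h0, Matrix.det_fromBlocks_zero₂₁, Matrix.det_smul, Matrix.det_one] at hd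
    simp only [mul_zero, mul_one, Fintype.card_fin] at hd
    exact pow_ne_zero _ h2 (mul_self_eq_zero.1 hd.symm)
  have hJU : Matrix.fromBlocks (0 : Matrix (Fin m) (Fin m) F) (1 : Matrix (Fin m) (Fin m) F)
      (1 : Matrix (Fin m) (Fin m) F) (0 : Matrix (Fin m) (Fin m) F) * U
      = U * Matrix.fromBlocks (1 : Matrix (Fin m) (Fin m) F) (0 : Matrix (Fin m) (Fin m) F)
          (0 : Matrix (Fin m) (Fin m) F) (-1 : Matrix (Fin m) (Fin m) F) := by
    rw [hUdef, Matrix.fromBlocks_multiply, Matrix.fromBlocks_multiply]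
    congr 1 <;> simp
  have hd := congrArg Matrix.det hJU
  rw [Matrix.det_mul, Matrix.det_mul, Matrix.det_fromBlocks_zero₂₁ (1 : Matrix (Fin m) (Fin m) F),
    Matrix.det_one, Matrix.det_neg, Matrix.det_one] at hd
  simp only [Fintype.card_fin, mul_one, one_mul] at hd
  rw [mul_comm] at hd
  exact mul_left_cancel₀ hU hd

/-- An element of `Ω` interchanging the two standard maximal totally singular subspaces
exists only for even `m`. -/
theorem plus_swap_even [Fintype F] {g : ↥(Cfsg.isometryGroup F (⇑(qfPlus m F)))}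
    (hg : g ∈ Cfsg.Omega F (⇑(qfPlus m F)))
    (h11 : ((g : Matrix.GeneralLinearGroup (Fin m ⊕ Fin m) F) :
            Matrix (Fin m ⊕ Fin m) (Fin m ⊕ Fin m) F).toBlocks₁₁ = 0)
    (h22 : ((g : Matrix.GeneralLinearGroup (Fin m ⊕ Fin m) F) :
            Matrix (Fin m ⊕ Fin m) (Fin m ⊕ Fin m) F).toBlocks₂₂ = 0) : Even m := by
  obtain ⟨M, hM⟩ : ∃ M, M = ((g : Matrix.GeneralLinearGroup (Fin m ⊕ Fin m) F) :
      Matrix (Fin m ⊕ Fin m) (Fin m ⊕ Fin m) F) := ⟨_, rfl⟩
  rw [← hM] at h11 h22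
  obtain ⟨r1, r2, r3⟩ := plus_rel M (fun x => by rw [hM]; exact isomG_map (qfPlus m F) g x)
  rw [h11, Matrix.transpose_zero, Matrix.zero_mul, zero_add] at r3
  by_cases h2 : (2 : F) = 0
  · have hd := dickson_of_mem_omega h2 hg
    rw [← hM] at hd
    unfold dicksonT at hd
    have e : M.toBlocks₁₂ᵀ * M.toBlocks₂₁ = 1 := by
      have := congrArg Matrix.transpose r3
      rwa [Matrix.transpose_mul, Matrix.transpose_transpose, Matrix.transpose_one] at this
    rw [e, Matrix.trace_one, Fintype.card_fin] at hd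
    by_contra hodd
    rw [Nat.not_even_iff_odd] at hodd
    obtain ⟨k, rfl⟩ := hodd
    push_cast at hd
    rw [h2, zero_mul, zero_add] at hd
    exact one_ne_zero hd
  · have hdet := det_of_mem_omega (qfPlus m F) hg
    rw [← hM] at hdet
    have hMb : M = Matrix.fromBlocks M.toBlocks₁₂ (0 : Matrix (Fin m) (Fin m) F)
          (0 : Matrix (Fin m) (Fin m) F) M.toBlocks₂₁
        * Matrix.fromBlocks (0 : Matrix (Fin m) (Fin m) F) (1 : Matrix (Fin m) (Fin m) F)
          (1 : Matrix (Fin m) (Fin m) F) (0 : Matrix (Fin m) (Fin m) F) := by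
      rw [Matrix.fromBlocks_multiply]
      conv_lhs => rw [← Matrix.fromBlocks_toBlocks M, h11, h22]
      congr 1 <;> simp
    rw [hMb, Matrix.det_mul, Matrix.det_fromBlocks_zero₂₁, det_blockSwap h2] at hdet
    have hBC : M.toBlocks₁₂.det * M.toBlocks₂₁.det = 1 := by
      have := congrArg Matrix.det r3
      rw [Matrix.det_mul, Matrix.det_transpose, Matrix.det_one] at this
      rw [mul_comm]
      exact this
    rw [hBC, one_mul] at hdet
    by_contra hodd
    rw [Nat.not_even_iff_odd] at hodd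
    rw [hodd.neg_one_pow] at hdet
    apply h2
    linear_combination -hdet

end Dickson

end Cfsg.Agent.Lib.Helper16
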