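import Mathlib
import Cfsg.Prelude.Def_ClassicalGeometry
import Cfsg.Agent.Lib.Helper16.SpinQuot
import Cfsg.Agent.Lib.Helper17.CDChar2App

set_option autoImplicit false
set_option linter.unusedSectionVars false

namespace Cfsg.Agent.Lib.Helper16

open Matrix

open scoped commutatorElement

section SpinSO

variable {ι : Type} [Fintype ι] [DecidableEq ι] {F : Type*} [Field F] [Fintype F]
variable (Q : QuadraticForm F (ι → F))

theorem mem_SO_iff (g : ↥(Cfsg.isometryGroup F (⇑Q))) :
    g ∈ Cfsg.specialIsometryGroup F (⇑Q) ↔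
      ((g : Matrix.GeneralLinearGroup ι F) : Matrix ι ι F).det = 1 := by
  unfold Cfsg.specialIsometryGroup
  rw [MonoidHom.mem_ker, Units.ext_iff]
  rfl

theorem SO_normal : (Cfsg.specialIsometryGroup F (⇑Q)).Normal := by
  unfold Cfsg.specialIsometryGroup
  infer_instance

/-- The squares of the isometries of determinant one. -/
def sqSet : Set ↥(Cfsg.isometryGroup F (⇑Q)) :=
  {y | ∃ x : ↥(Cfsg.isometryGroup F (⇑Q)), x ∈ Cfsg.specialIsometryGroup F (⇑Q) ∧ y = x * x}

/-- The subgroup generated by the squares of the isometries of determinant one. -/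
def sqSub : Subgroup ↥(Cfsg.isometryGroup F (⇑Q)) := Subgroup.normalClosure (sqSet Q)

instance sqSub_normal : (sqSub Q).Normal := Subgroup.normalClosure_normal

theorem sqSub_le_closure : sqSub Q ≤ Subgroup.closure (sqSet Q) := by
  unfold sqSub Subgroup.normalClosure
  apply Subgroup.closure_mono
  intro y hy
  rw [Group.mem_conjugatesOfSet_iff] at hy
  obtain ⟨z, ⟨x, hx, rfl⟩, hc⟩ := hy
  obtain ⟨c, hc⟩ := isConj_iff.1 hc
  refine ⟨c * x * c⁻¹, ?_, ?_⟩
  · exact (SO_normal Q).conj_mem x hx c
  · rw [← hc]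
    group

theorem sq_mem_sqSub {x : ↥(Cfsg.isometryGroup F (⇑Q))}
    (hx : x ∈ Cfsg.specialIsometryGroup F (⇑Q)) : x * x ∈ sqSub Q :=
  Subgroup.subset_normalClosure ⟨x, hx, rfl⟩

theorem reflG_mul_mem_SO (u w : ι → F) (hu : Q u ≠ 0) (hw : Q w ≠ 0) :
    reflG Q u hu * reflG Q w hw ∈ Cfsg.specialIsometryGroup F (⇑Q) := by
  rw [mem_SO_iff, isomG_mul_coe, Matrix.det_mul, reflG_coe, reflG_coe, refl_det Q hu,
    refl_det Q hw]
  norm_num

theorem refl_move (h2 : (2 : F) ≠ 0) {u v : ι → F} (huv : Q u = Q v) (hv : Q v ≠ 0) :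
    ∃ w : ι → F, Q w ≠ 0 ∧
      Cfsg.reflectionMatrix (⇑Q) (Cfsg.reflectionMatrix (⇑Q) w *ᵥ u)
        = Cfsg.reflectionMatrix (⇑Q) v := by
  have hm : Q (u - v) = Q u + Q v - QuadraticMap.polar (⇑Q) v u := by
    have := quad_sub_smul Q 1 v u
    simpa using this
  have hp : Q (u + v) = Q u + Q v + QuadraticMap.polar (⇑Q) v u := by
    rw [QuadraticMap.map_add (⇑Q), QuadraticMap.polar_comm]
  by_cases hd : Q (u - v) = 0
  · have hs : Q (u + v) ≠ 0 := by
      have h4 : Q (u + v) = 4 * Q v := by
        rw [hp]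
        rw [hm] at hd
        rw [huv] at hd ⊢
        linear_combination -hd
      rw [h4]
      have : (4 : F) ≠ 0 := by
        have : (4 : F) = 2 * 2 := by norm_num
        rw [this]
        exact mul_ne_zero h2 h2
      exact mul_ne_zero this hv
    refine ⟨u + v, hs, ?_⟩
    have e1 : Cfsg.reflectionMatrix (⇑Q) (u + v) *ᵥ u = -v := by
      rw [refl_mulVec]
      have : (Q (u + v))⁻¹ * QuadraticMap.polar (⇑Q) (u + v) u = 1 := by
        have e : QuadraticMap.polar (⇑Q) (u + v) u = Q (u + v) := by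
          rw [QuadraticMap.polar_add_left, QuadraticMap.polar_self, hp, nsmul_eq_mul, huv]
          push_cast
          ring
        rw [e, inv_mul_cancel₀ hs]
      rw [this, one_smul]
      abel
    rw [e1]
    have e2 : -v = (-1 : F) • v := by rw [neg_smul, one_smul]
    rw [e2, refl_smul Q (-1) (by norm_num) v]
  · refine ⟨u - v, hd, ?_⟩
    have e1 : Cfsg.reflectionMatrix (⇑Q) (u - v) *ᵥ u = v := by
      rw [refl_mulVec]
      have : (Q (u - v))⁻¹ * QuadraticMap.polar (⇑Q) (u - v) u = 1 := by
        have e : QuadraticMap.polar (⇑Q) (u - v) u = Q (u - v) := by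
          rw [QuadraticMap.polar_sub_left, QuadraticMap.polar_self, hm, nsmul_eq_mul, huv]
          push_cast
          ring
        rw [e, inv_mul_cancel₀ hd]
      rw [this, one_smul]
      abel
    rw [e1]

theorem refl_pair_eq_mem (h2 : (2 : F) ≠ 0) {u v : ι → F} (hu : Q u ≠ 0) (hv : Q v ≠ 0)
    (huv : Q u = Q v) : reflG Q u hu * reflG Q v hv ∈ sqSub Q := by
  obtain ⟨w, hw, hwv⟩ := refl_move Q h2 huv hv
  have hq : Q (((reflG Q w hw : Matrix.GeneralLinearGroup ι F) : Matrix ι ι F) *ᵥ u) ≠ 0 := by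
    rw [isomG_map]
    exact hu
  have h1 : reflG Q w hw * reflG Q u hu * (reflG Q w hw)⁻¹ = reflG Q v hv := by
    rw [refl_conj Q (reflG Q w hw) u hu hq]
    apply isomG_ext
    rw [reflG_coe, reflG_coe, reflG_coe]
    exact hwv
  rw [reflG_inv] at h1
  have h3 : reflG Q u hu * reflG Q v hv
      = (reflG Q u hu * reflG Q w hw) * (reflG Q u hu * reflG Q w hw) := by
    rw [← h1]
    group
  rw [h3]
  exact sq_mem_sqSub Q (reflG_mul_mem_SO Q u w hu hw)

theorem refl_pair_mem (h2 : (2 : F) ≠ 0) {u v : ι → F} (hu : Q u ≠ 0) (hv : Q v ≠ 0)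
    (hs : IsSquare (Q u * Q v)) : reflG Q u hu * reflG Q v hv ∈ sqSub Q := by
  obtain ⟨r, hr⟩ := hs
  have hr0 : r ≠ 0 := by
    rintro rfl
    rw [mul_zero] at hr
    exact mul_ne_zero hu hv hr
  have hc : r / Q v ≠ 0 := div_ne_zero hr0 hv
  have hq : Q ((r / Q v) • v) = Q u := by
    rw [QuadraticMap.map_smul, smul_eq_mul]
    field_simp
    linear_combination -hr
  have hq' : Q ((r / Q v) • v) ≠ 0 := by rw [hq]; exact hu
  have e1 : reflG Q v hv = reflG Q ((r / Q v) • v) hq' := by
    apply isomG_ext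
    rw [reflG_coe, reflG_coe, refl_smul Q _ hc]
  rw [e1]
  exact refl_pair_eq_mem Q h2 hu hq' hq.symm

theorem refl_quad_mem (h2 : (2 : F) ≠ 0) {a b c d : ι → F} (ha : Q a ≠ 0) (hb : Q b ≠ 0)
    (hc : Q c ≠ 0) (hd : Q d ≠ 0) (h1 : IsSquare (Q a * Q c)) (h3 : IsSquare (Q b * Q d)) :
    reflG Q a ha * reflG Q b hb * (reflG Q c hc * reflG Q d hd) ∈ sqSub Q := by
  have hq : Q (((reflG Q c hc : Matrix.GeneralLinearGroup ι F) : Matrix ι ι F) *ᵥ b) ≠ 0 := by
    rw [isomG_map]
    exact hb
  have e1 := refl_conj Q (reflG Q c hc) b hb hq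
  rw [reflG_inv] at e1
  have e2 : reflG Q a ha * reflG Q b hb * (reflG Q c hc * reflG Q d hd)
      = (reflG Q a ha * reflG Q c hc) *
        (reflG Q (((reflG Q c hc : Matrix.GeneralLinearGroup ι F) : Matrix ι ι F) *ᵥ b) hq
          * reflG Q d hd) := by
    rw [← e1]
    have e3 := reflG_mul_self Q c hc
    calc reflG Q a ha * reflG Q b hb * (reflG Q c hc * reflG Q d hd)
        = reflG Q a ha * (reflG Q c hc * reflG Q c hc) * reflG Q b hb
            * (reflG Q c hc * reflG Q d hd) := by rw [e3, mul_one]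
      _ = _ := by group
  rw [e2]
  refine Subgroup.mul_mem _ (refl_pair_mem Q h2 ha hc h1) (refl_pair_mem Q h2 hq hd ?_)
  rw [isomG_map]
  exact h3

theorem isSquare_of_mul_left {x y : F} (hx : x ≠ 0) (h1 : IsSquare (x * y)) (h2 : IsSquare x) :
    IsSquare y := by
  have h3 := h1.div h2
  have e : x * y / x = y := by field_simp
  rwa [e] at h3

theorem isSquare_cross {x y z : F} (hx : x ≠ 0) (h1 : IsSquare (x * y)) (h2 : IsSquare (x * z)) :
    IsSquare (y * z) := by
  have h3 := (h1.mul h2).div (IsSquare.mul_self x)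
  have e : x * y * (x * z) / (x * x) = y * z := by field_simp
  rwa [e] at h3

theorem isSquare_cross_not {x y z : F} (hx : x ≠ 0) (hy : y ≠ 0) (hz : z ≠ 0)
    (h1 : ¬ IsSquare (x * y)) (h2 : ¬ IsSquare (x * z)) : IsSquare (y * z) := by
  have h3 := (isSquare_mul_of_not (mul_ne_zero hx hy) (mul_ne_zero hx hz) h1 h2).div
    (IsSquare.mul_self x)
  have e : x * y * (x * z) / (x * x) = y * z := by field_simp
  rwa [e] at h3

theorem refl_quad_mem' (h2 : (2 : F) ≠ 0) {a b c d : ι → F} (ha : Q a ≠ 0) (hb : Q b ≠ 0)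
    (hc : Q c ≠ 0) (hd : Q d ≠ 0) (h1 : ¬ IsSquare (Q a * Q b)) (h3 : ¬ IsSquare (Q c * Q d)) :
    reflG Q a ha * reflG Q b hb * (reflG Q c hc * reflG Q d hd) ∈ sqSub Q := by
  by_cases hac : IsSquare (Q a * Q c)
  · refine refl_quad_mem Q h2 ha hb hc hd hac ?_
    -- Q b * Q d
    have hbc : ¬ IsSquare (Q c * Q b) := by
      intro h
      apply h1
      have hca : IsSquare (Q c * Q a) := by rwa [mul_comm] at hac
      exact isSquare_cross hc hca h
    exact isSquare_cross_not hc hb hd hbc h3
  · have had : IsSquare (Q a * Q d) := by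
      have h4 : ¬ IsSquare (Q c * Q a) := by rwa [mul_comm] at hac
      exact isSquare_cross_not hc ha hd h4 h3
    have hbc : IsSquare (Q b * Q c) := isSquare_cross_not ha hb hc h1 hac
    have e : reflG Q a ha * reflG Q b hb * (reflG Q c hc * reflG Q d hd)
        = (reflG Q a ha * reflG Q b hb) *
            ((reflG Q c hc * reflG Q d hd) * (reflG Q c hc * reflG Q d hd)) *
            (reflG Q a ha * reflG Q b hb)⁻¹ *
          (reflG Q a ha * reflG Q b hb * (reflG Q d hd * reflG Q c hc)) := by
      have e3 := reflG_mul_self Q c hc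
      have e4 := reflG_mul_self Q d hd
      have e5 : reflG Q c hc * reflG Q d hd * (reflG Q c hc * reflG Q d hd)
          * (reflG Q d hd * reflG Q c hc) = reflG Q c hc * reflG Q d hd := by
        calc reflG Q c hc * reflG Q d hd * (reflG Q c hc * reflG Q d hd)
              * (reflG Q d hd * reflG Q c hc)
            = reflG Q c hc * reflG Q d hd * (reflG Q c hc * (reflG Q d hd * reflG Q d hd)
              * reflG Q c hc) := by group
          _ = reflG Q c hc * reflG Q d hd := by rw [e4, mul_one, e3, mul_one]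
      calc reflG Q a ha * reflG Q b hb * (reflG Q c hc * reflG Q d hd)
          = reflG Q a ha * reflG Q b hb * (reflG Q c hc * reflG Q d hd
            * (reflG Q c hc * reflG Q d hd) * (reflG Q d hd * reflG Q c hc)) := by rw [e5]
        _ = _ := by group
    rw [e]
    refine Subgroup.mul_mem _ ?_ (refl_quad_mem Q h2 ha hb hd hc had hbc)
    exact (sqSub_normal Q).conj_mem _ (sq_mem_sqSub Q (reflG_mul_mem_SO Q c d hc hd)) _

theorem list_prod_ne_zero (vs : List (ι → F)) (hvs : ∀ v ∈ vs, Q v ≠ 0) :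
    (vs.map (fun v => Q v)).prod ≠ 0 := by
  apply List.prod_ne_zero
  intro h
  rw [List.mem_map] at h
  obtain ⟨v, hv, hv0⟩ := h
  exact hvs v hv hv0

theorem list_mem_sqSub (h2 : (2 : F) ≠ 0) : ∀ n : ℕ, ∀ vs : List (ι → F), vs.length = n →
    (∀ v ∈ vs, Q v ≠ 0) → Even n → IsSquare (vs.map (fun v => Q v)).prod →
    (vs.map (reflG' Q)).prod ∈ sqSub Q := by
  intro n
  induction n using Nat.strong_induction_on with
  | _ n ih =>
    intro vs hlen hvs heven hsq
    match vs, hlen, hvs, hsq with
    | [], _, _, _ => simp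
    | [a], hlen, _, _ =>
      exfalso
      simp only [List.length_cons, List.length_nil] at hlen
      rw [← hlen] at heven
      exact absurd heven (by decide)
    | a :: b :: rest, hlen, hvs, hsq =>
      have ha : Q a ≠ 0 := hvs a (by simp)
      have hb : Q b ≠ 0 := hvs b (by simp)
      have hrest : ∀ v ∈ rest, Q v ≠ 0 := fun v hv => hvs v (by simp [hv])
      have hR0 := list_prod_ne_zero Q rest hrest
      simp only [List.map_cons, List.prod_cons] at hsq ⊢
      rw [reflG'_of Q a ha, reflG'_of Q b hb]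
      simp only [List.length_cons] at hlen
      have hlen' : rest.length = n - 2 := by omega
      have heven' : Even (n - 2) := by
        obtain ⟨k, hk⟩ := heven
        exact ⟨k - 1, by omega⟩
      by_cases hab : IsSquare (Q a * Q b)
      · have hR : IsSquare (rest.map (fun v => Q v)).prod := by
          refine isSquare_of_mul_left (mul_ne_zero ha hb) ?_ hab
          rwa [mul_assoc]
        have h1 := ih (n - 2) (by omega) rest hlen' hrest heven' hR
        rw [← mul_assoc]
        exact Subgroup.mul_mem _ (refl_pair_mem Q h2 ha hb hab) h1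
      · match rest, hlen', hrest, hR0 with
        | [], _, _, _ =>
          exfalso
          apply hab
          simpa using hsq
        | [c], hlen', _, _ =>
          exfalso
          simp only [List.length_cons, List.length_nil] at hlen'
          rw [← hlen'] at heven'
          exact absurd heven' (by decide)
        | c :: d :: rest', hlen', hrest, hR0 =>
          have hc : Q c ≠ 0 := hrest c (by simp)
          have hd : Q d ≠ 0 := hrest d (by simp)
          have hrest' : ∀ v ∈ rest', Q v ≠ 0 := fun v hv => hrest v (by simp [hv])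
          have hR0' := list_prod_ne_zero Q rest' hrest'
          simp only [List.map_cons, List.prod_cons] at hsq ⊢
          rw [reflG'_of Q c hc, reflG'_of Q d hd]
          simp only [List.length_cons] at hlen'
          by_cases hcd : IsSquare (Q c * Q d)
          · -- drop the pair c, d
            have hsq' : IsSquare ((a :: b :: rest').map (fun v => Q v)).prod := by
              simp only [List.map_cons, List.prod_cons]
              refine isSquare_of_mul_left (mul_ne_zero hc hd) ?_ hcd
              have e : Q c * Q d * (Q a * (Q b * (rest'.map (fun v => Q v)).prod))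
                  = Q a * (Q b * (Q c * (Q d * (rest'.map (fun v => Q v)).prod))) := by ring
              rw [e]
              exact hsq
            have h1 := ih (n - 2) (by omega) (a :: b :: rest')
              (by simp only [List.length_cons]; omega)
              (fun v hv => by
                simp only [List.mem_cons] at hv
                rcases hv with rfl | rfl | hv
                · exact ha
                · exact hb
                · exact hrest' v hv) heven' hsq'
            simp only [List.map_cons, List.prod_cons] at h1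
            rw [reflG'_of Q a ha, reflG'_of Q b hb] at h1
            have e : reflG Q a ha * (reflG Q b hb * (reflG Q c hc * (reflG Q d hd
                  * (rest'.map (reflG' Q)).prod)))
                = (reflG Q a ha * reflG Q b hb) * (reflG Q c hc * reflG Q d hd)
                    * (reflG Q a ha * reflG Q b hb)⁻¹
                  * (reflG Q a ha * (reflG Q b hb * (rest'.map (reflG' Q)).prod)) := by
              group
            rw [e]
            refine Subgroup.mul_mem _ ?_ h1
            exact (sqSub_normal Q).conj_mem _ (refl_pair_mem Q h2 hc hd hcd) _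
          · have hR' : IsSquare (rest'.map (fun v => Q v)).prod := by
              have h4 : IsSquare (Q a * Q b * (Q c * Q d)) :=
                isSquare_mul_of_not (mul_ne_zero ha hb) (mul_ne_zero hc hd) hab hcd
              refine isSquare_of_mul_left (mul_ne_zero (mul_ne_zero ha hb) (mul_ne_zero hc hd))
                ?_ h4
              have e : Q a * Q b * (Q c * Q d) * (rest'.map (fun v => Q v)).prod
                  = Q a * (Q b * (Q c * (Q d * (rest'.map (fun v => Q v)).prod))) := by ring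
              rw [e]
              exact hsq
            have heven'' : Even (n - 4) := by
              obtain ⟨k, hk⟩ := heven
              exact ⟨k - 2, by omega⟩
            have h1 := ih (n - 4) (by omega) rest' (by omega) hrest' heven'' hR'
            have e : reflG Q a ha * (reflG Q b hb * (reflG Q c hc * (reflG Q d hd
                  * (rest'.map (reflG' Q)).prod)))
                = (reflG Q a ha * reflG Q b hb * (reflG Q c hc * reflG Q d hd))
                  * (rest'.map (reflG' Q)).prod := by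
              group
            rw [e]
            exact Subgroup.mul_mem _ (refl_quad_mem' Q h2 ha hb hc hd hab hcd) h1

theorem omega_le_sqSub (h2 : (2 : F) ≠ 0) (hQ : (QuadraticMap.polarBilin Q).Nondegenerate)
    (hn : 2 ≤ Fintype.card ι) : Cfsg.Omega F (⇑Q) ≤ sqSub Q := by
  intro g hg
  obtain ⟨vs, hvs, hgv⟩ := exists_refl_list Q h2 hQ g
  have hgm : ((g : Matrix.GeneralLinearGroup ι F) : Matrix ι ι F)
      = (vs.map (fun v => Cfsg.reflectionMatrix (⇑Q) v)).prod := by
    rw [hgv]
    exact coe_list_prod_reflG' Q vs hvs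
  obtain ⟨he, hs⟩ := (spinor_criterion Q h2 hQ hn g vs hvs hgm).1 hg
  rw [hgv]
  exact list_mem_sqSub Q h2 vs.length vs rfl hvs he hs

theorem so_index_two_odd (h2 : (2 : F) ≠ 0) (hQ : (QuadraticMap.polarBilin Q).Nondegenerate)
    (hn : 2 ≤ Fintype.card ι) :
    ∃! H : Subgroup ↥(Cfsg.specialIsometryGroup F (⇑Q)), H.index = 2 := by
  obtain ⟨SO, hSO⟩ : ∃ S, S = Cfsg.specialIsometryGroup F (⇑Q) := ⟨_, rfl⟩
  rw [← hSO]
  have hΩ4 := omega_index Q h2 hQ hn
  have hΩle : Cfsg.Omega F (⇑Q) ≤ SO := by
    intro g hg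
    rw [hSO, mem_SO_iff]
    exact det_of_mem_omega Q hg
  have hrel := Subgroup.relIndex_mul_index hΩle
  rw [hΩ4] at hrel
  obtain ⟨u, w, hu, hw, hus, hws⟩ := exists_sq_nonsq Q h2 hQ hn
  have hSO1 : SO.index ≠ 1 := by
    rw [Ne, Subgroup.index_eq_one]
    intro htop
    have h1 : reflG Q u hu ∈ SO := by rw [htop]; trivial
    rw [hSO, mem_SO_iff, reflG_coe, refl_det Q hu] at h1
    apply h2
    linear_combination -h1
  have hrel1 : (Cfsg.Omega F (⇑Q)).relIndex SO ≠ 1 := by
    rw [Ne, Subgroup.relIndex_eq_one]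
    intro hle
    have hmem : reflG Q u hu * reflG Q w hw ∈ Cfsg.Omega F (⇑Q) :=
      hle (by rw [hSO]; exact reflG_mul_mem_SO Q u w hu hw)
    have hvs : ∀ v ∈ [u, w], Q v ≠ 0 := by
      intro v hv
      simp only [List.mem_cons, List.not_mem_nil, or_false] at hv
      rcases hv with rfl | rfl
      · exact hu
      · exact hw
    have hm : ((reflG Q u hu * reflG Q w hw : ↥(Cfsg.isometryGroup F (⇑Q))) :
        Matrix.GeneralLinearGroup ι F).1
        = ([u, w].map (fun v => Cfsg.reflectionMatrix (⇑Q) v)).prod := by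
      simp only [List.map_cons, List.map_nil, List.prod_cons, List.prod_nil, mul_one]
      rw [isomG_mul_coe, reflG_coe, reflG_coe]
    have h3 := ((spinor_criterion Q h2 hQ hn _ [u, w] hvs hm).1 hmem).2
    simp only [List.map_cons, List.map_nil, List.prod_cons, List.prod_nil, mul_one] at h3
    exact hws (isSquare_of_mul_left hu h3 hus)
  have h22 : (Cfsg.Omega F (⇑Q)).relIndex SO = 2 ∧ SO.index = 2 := by
    have ha : (Cfsg.Omega F (⇑Q)).relIndex SO ∣ 4 := Dvd.intro _ hrel
    have hle4 : (Cfsg.Omega F (⇑Q)).relIndex SO ≤ 4 := Nat.le_of_dvd (by norm_num) ha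
    obtain ⟨a, ha'⟩ : ∃ a, a = (Cfsg.Omega F (⇑Q)).relIndex SO := ⟨_, rfl⟩
    obtain ⟨b, hb'⟩ : ∃ b, b = SO.index := ⟨_, rfl⟩
    rw [← ha'] at hrel hrel1 hle4 ⊢
    rw [← hb'] at hrel hSO1 ⊢
    interval_cases a <;> omega
  refine ⟨(Cfsg.Omega F (⇑Q)).subgroupOf SO, h22.1, ?_⟩
  intro H hH
  have hle : (Cfsg.Omega F (⇑Q)).subgroupOf SO ≤ H := by
    intro x hx
    rw [Subgroup.mem_subgroupOf] at hx
    have h1 : (x : ↥(Cfsg.isometryGroup F (⇑Q))) ∈ Subgroup.closure (sqSet Q) :=
      sqSub_le_closure Q (omega_le_sqSub Q h2 hQ hn hx)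
    have h2' : Subgroup.closure (sqSet Q) ≤ H.map SO.subtype := by
      rw [Subgroup.closure_le]
      rintro y ⟨z, hz, rfl⟩
      have hz' : z ∈ SO := by rw [hSO]; exact hz
      refine ⟨⟨z, hz'⟩ * ⟨z, hz'⟩, ?_, rfl⟩
      have h5 := Subgroup.sq_mem_of_index_two hH ⟨z, hz'⟩
      rwa [sq] at h5
    obtain ⟨h, hh, hhx⟩ := h2' h1
    have h6 : h = x := Subtype.ext hhx
    rwa [h6] at hh
  symm
  apply Subgroup.eq_of_le_of_card_ge hle
  have c1 := Subgroup.card_mul_index H
  have c2 := Subgroup.card_mul_index ((Cfsg.Omega F (⇑Q)).subgroupOf SO)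
  have c3 : ((Cfsg.Omega F (⇑Q)).subgroupOf SO).index = 2 := h22.1
  rw [hH] at c1
  rw [c3] at c2
  omega

theorem so_index_two_even [CharP F 2] (hQ : (QuadraticMap.polarBilin Q).Nondegenerate)
    (hex : Fintype.card F ≠ 2 ∨ Fintype.card ι ≠ 4)
    (hidx : (Cfsg.Omega F (⇑Q)).index = 2) :
    ∃! H : Subgroup ↥(Cfsg.specialIsometryGroup F (⇑Q)), H.index = 2 := by
  obtain ⟨SO, hSO⟩ : ∃ S, S = Cfsg.specialIsometryGroup F (⇑Q) := ⟨_, rfl⟩
  rw [← hSO]
  have hall : ∀ g : ↥(Cfsg.isometryGroup F (⇑Q)), g ∈ SO := by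
    intro g
    have hg := Cfsg.Agent.Lib.Helper17.fin_cartan_dieudonne Q hQ hex g
    have hle : Subgroup.closure (cdR Q) ≤ SO := by
      rw [Subgroup.closure_le]
      rintro r ⟨v, hv, hm⟩
      show r ∈ SO
      rw [hSO, mem_SO_iff, hm, refl_det Q hv]
      exact CharTwo.neg_eq 1
    exact hle hg
  have hΩle : Cfsg.Omega F (⇑Q) ≤ SO := fun g _ => hall g
  have hrel := Subgroup.relIndex_mul_index hΩle
  have htop : SO.index = 1 := by
    rw [Subgroup.index_eq_one, eq_top_iff]
    exact fun g _ => hall g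
  rw [hidx, htop, mul_one] at hrel
  refine ⟨(Cfsg.Omega F (⇑Q)).subgroupOf SO, hrel, ?_⟩
  intro H hH
  have hcomm := commutator_le_of_index_two H hH
  have hle : (Cfsg.Omega F (⇑Q)).subgroupOf SO ≤ H := by
    intro x hx
    rw [Subgroup.mem_subgroupOf] at hx
    have h2' : Cfsg.Omega F (⇑Q) ≤ H.map SO.subtype := by
      show commutator ↥(Cfsg.isometryGroup F (⇑Q)) ≤ _
      rw [commutator_def, Subgroup.commutator_le]
      intro g _ h _
      refine ⟨⁅(⟨g, hall g⟩ : ↥SO), ⟨h, hall h⟩⁆, hcomm ?_, rfl⟩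
      rw [commutator_def]
      exact Subgroup.commutator_mem_commutator (Subgroup.mem_top _) (Subgroup.mem_top _)
    obtain ⟨h, hh, hhx⟩ := h2' hx
    have h6 : h = x := Subtype.ext hhx
    rwa [h6] at hh
  symm
  apply Subgroup.eq_of_le_of_card_ge hle
  have c1 := Subgroup.card_mul_index H
  have c2 := Subgroup.card_mul_index ((Cfsg.Omega F (⇑Q)).subgroupOf SO)
  have c3 : ((Cfsg.Omega F (⇑Q)).subgroupOf SO).index = 2 := hrel
  rw [hH] at c1
  rw [c3] at c2
  omega

end SpinSO

end Cfsg.Agent.Lib.Helper16
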